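/-
Four primes pairwise joined: basic tools.

The Frobenius action lemma as an operator identity, fixed vectors of non-cyclic abelian groups,
and the Frattini module of a normal `s`-subgroup.
-/
import Cfsg.Agent.Lib.HallHigman.FixedPoints
import Cfsg.Agent.Lib.FPF.Basic
import Cfsg.Agent.Lib.FPF.UniqueOrderP
import Cfsg.Agent.Lib.PGroups.Basic
import Cfsg.Agent.Lib.Coprime.Action

set_option autoImplicit false
set_option linter.style.haveILetI false
set_option linter.unusedSectionVars false
set_option linter.unusedVariables false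

namespace Cfsg.Agent.Lib.FourP

open Module Cfsg Cfsg.Agent.Lib.Coprime.Action
open scoped commutatorElement

universe u

section FL

variable {H : Type u} [Group H] [Finite H] {F V : Type*} [Field F] [AddCommGroup V] [Module F V]

/-- **The Frobenius action lemma.** Let `C` act on `K` with each non-identity element of `C` fixing
no non-identity element of `K`, and let `K C` act on a module on which `|K|` is invertible. If `C`
has no non-zero fixed vector, then `K` acts trivially. -/
theorem fl (ρ : H →* End F V) (K C : Subgroup H) (hCK : C ≤ Subgroup.normalizer (K : Set H))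
    (hfp : ∀ c ∈ C, c ≠ 1 → ∀ k ∈ K, c * k = k * c → k = 1)
    (hinv : ((Nat.card K : ℕ) : F) ≠ 0)
    (hfree : ∀ v, (∀ c ∈ C, ρ c v = v) → v = 0) :
    ∀ k ∈ K, ρ k = 1 := by
  classical
  letI : Fintype K := Fintype.ofFinite K
  letI : Fintype C := Fintype.ofFinite C
  set T : End F V := ∑ c : C, ρ (c : H) with hT
  set P : End F V := ∑ k : K, ρ (k : H) with hP
  have hT0 : T = 0 := by
    ext v
    apply hfree
    intro c hc
    have h1 : ρ c * T = T := by
      rw [hT, Finset.mul_sum]
      refine Fintype.sum_equiv (Equiv.mulLeft (⟨c, hc⟩ : C)) _ _ ?_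
      intro x
      simp [map_mul]
    have := LinearMap.congr_fun h1 v
    simpa using this
  -- the conjugation sum
  have hconj : ∀ c : C, (c : H) ≠ 1 → ∑ k : K, ρ ((k : H) * c * (k : H)⁻¹) = P * ρ (c : H) := by
    intro c hc
    have hmem : ∀ k : K, (k : H) * c * (k : H)⁻¹ * (c : H)⁻¹ ∈ K := by
      intro k
      have h1 : (c : H) * (k : H)⁻¹ * (c : H)⁻¹ ∈ K :=
        (Subgroup.mem_normalizer_iff.mp (hCK c.2) _).mp (K.inv_mem k.2)
      have e : (k : H) * c * (k : H)⁻¹ * (c : H)⁻¹ = k * ((c : H) * (k : H)⁻¹ * (c : H)⁻¹) := by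
        group
      rw [e]
      exact K.mul_mem k.2 h1
    let f : K → K := fun k => ⟨_, hmem k⟩
    have hf : Function.Injective f := by
      intro a b hab
      have h1 : (a : H) * c * (a : H)⁻¹ * (c : H)⁻¹ = (b : H) * c * (b : H)⁻¹ * (c : H)⁻¹ :=
        congrArg Subtype.val hab
      have h2 : (a : H) * c * (a : H)⁻¹ = (b : H) * c * (b : H)⁻¹ := mul_right_cancel h1
      have h3 : (c : H) * ((b : H)⁻¹ * a) = ((b : H)⁻¹ * a) * c := by
        have : (b : H)⁻¹ * ((a : H) * c * (a : H)⁻¹) * a = (b : H)⁻¹ * ((b : H) * c * (b : H)⁻¹) * a := by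
          rw [h2]
        calc (c : H) * ((b : H)⁻¹ * a) = (b : H)⁻¹ * ((b : H) * c * (b : H)⁻¹) * a := by group
          _ = (b : H)⁻¹ * ((a : H) * c * (a : H)⁻¹) * a := this.symm
          _ = ((b : H)⁻¹ * a) * c := by group
      have h4 := hfp c c.2 hc _ (K.mul_mem (K.inv_mem b.2) a.2) h3
      apply Subtype.ext
      exact (inv_mul_eq_one.mp h4).symm
    have hbij : Function.Bijective f := Finite.injective_iff_bijective.mp hf
    rw [hP, Finset.sum_mul]
    refine Fintype.sum_bijective f hbij _ _ ?_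
    intro k
    rw [← map_mul]
    congr 1
    change (k : H) * c * (k : H)⁻¹ = (k : H) * c * (k : H)⁻¹ * (c : H)⁻¹ * c
    group
  have hone : ∑ k : K, ρ ((k : H) * ((1 : C) : H) * (k : H)⁻¹) = (Fintype.card K : End F V) := by
    have : ∀ k : K, ρ ((k : H) * ((1 : C) : H) * (k : H)⁻¹) = 1 := by
      intro k
      simp
    simp only [this]
    simp
  have hsum : ∑ k : K, ρ (k : H) * T * ρ (k : H)⁻¹ = 0 := by
    rw [hT0]
    simp
  have hexp : ∑ k : K, ρ (k : H) * T * ρ (k : H)⁻¹
      = ∑ c : C, ∑ k : K, ρ ((k : H) * c * (k : H)⁻¹) := by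
    rw [Finset.sum_comm]
    refine Finset.sum_congr rfl (fun k _ => ?_)
    rw [hT, Finset.mul_sum, Finset.sum_mul]
    refine Finset.sum_congr rfl (fun c _ => ?_)
    rw [map_mul, map_mul]
  -- so `P = |K|`
  have hPK : P = (Fintype.card K : End F V) := by
    have h1 : ∑ c : C, ∑ k : K, ρ ((k : H) * c * (k : H)⁻¹)
        = (Fintype.card K : End F V) + P * (T - 1) := by
      rw [← Finset.add_sum_erase _ _ (Finset.mem_univ (1 : C)), hone]
      congr 1
      have h2 : T - 1 = ∑ c ∈ Finset.univ.erase (1 : C), ρ (c : H) := by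
        rw [hT, ← Finset.add_sum_erase _ _ (Finset.mem_univ (1 : C))]
        simp
      rw [h2, Finset.mul_sum]
      refine Finset.sum_congr rfl (fun c hc => ?_)
      apply hconj
      intro h
      apply (Finset.mem_erase.mp hc).1
      exact Subtype.ext h
    rw [← hexp, hsum, hT0] at h1
    rw [zero_sub, mul_neg, mul_one] at h1
    exact (add_neg_eq_zero.mp h1.symm).symm
  intro k₀ hk₀
  have hk : ρ k₀ * P = P := by
    rw [hP, Finset.mul_sum]
    refine Fintype.sum_equiv (Equiv.mulLeft (⟨k₀, hk₀⟩ : K)) _ _ ?_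
    intro x
    simp [map_mul]
  ext v
  rw [hPK] at hk
  have h3 := LinearMap.congr_fun hk v
  have hcard : ((Fintype.card K : ℕ) : F) ≠ 0 := by
    rwa [← Nat.card_eq_fintype_card]
  have e1 : ∀ w, ((Fintype.card K : End F V)) w = ((Fintype.card K : ℕ) : F) • w := by
    intro w
    rw [Module.End.natCast_apply, Nat.cast_smul_eq_nsmul]
  rw [Module.End.mul_apply, e1, map_smul] at h3
  have h4 := smul_right_injective V hcard h3
  simpa using h4

/-- Non-cyclic abelian groups always have a fixed vector on a non-zero invariant subspace. -/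
theorem exists_fixed_of_not_cyclic [Finite V] (ρ : H →* End F V) (E : Subgroup H)
    (hEc : ∀ a ∈ E, ∀ b ∈ E, a * b = b * a) (hEn : ¬ IsCyclic E) (S : Submodule F V)
    (hS : ∀ a ∈ E, ∀ v ∈ S, ρ a v ∈ S) (hS0 : S ≠ ⊥) :
    ∃ b ∈ E, b ≠ 1 ∧ ∃ v ∈ S, v ≠ 0 ∧ ρ b v = v := by
  classical
  by_contra hcon
  push Not at hcon
  let act : E → (S →+ S) := fun a =>
    { toFun := fun v => ⟨ρ a v, hS a a.2 v v.2⟩
      map_zero' := by
        apply Subtype.ext
        simp
      map_add' := by
        intro x y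
        apply Subtype.ext
        simp }
  let φ : E →* AddMonoid.End S :=
    { toFun := act
      map_one' := by
        ext v
        change ρ ((1 : E) : H) (v : V) = v
        simp
      map_mul' := by
        intro a b
        ext v
        change ρ ((a * b : E) : H) (v : V) = ρ a (ρ b v)
        simp }
  have hfp : Cfsg.Agent.Lib.FPF.Basic.IsFPF φ := by
    intro a ha w hw
    by_contra hw0
    have hw' : (w : V) ≠ 0 := fun h => hw0 (Subtype.ext h)
    refine hcon a a.2 (fun h => ha (Subtype.ext h)) w w.2 hw' ?_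
    exact congrArg Subtype.val hw
  haveI : Nontrivial S := Submodule.nontrivial_iff_ne_bot.mpr hS0
  exact hEn (Cfsg.Agent.Lib.FPF.Basic.isCyclic_of_comm hfp (fun a b =>
    Subtype.ext (hEc a a.2 b b.2)))

end FL

/-! ### Non-cyclic pairs -/

section Pairs

variable {H : Type u} [Group H]

/-- Two commuting elements of prime order `t` generating a non-cyclic group. -/
structure NC (t : ℕ) (x y : H) : Prop where
  ox : orderOf x = t
  oy : orderOf y = t
  comm : x * y = y * x
  nm : y ∉ Subgroup.zpowers x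

/-- The group generated by a pair. -/
def EE (x y : H) : Subgroup H := Subgroup.closure {x, y}

theorem EE_induct {x y : H} {P : H → Prop} (h1 : P 1) (hx : P x) (hy : P y)
    (hm : ∀ a b, P a → P b → P (a * b)) (hi : ∀ a, P a → P a⁻¹) {g : H} (hg : g ∈ EE x y) : P g := by
  unfold EE at hg
  induction hg using Subgroup.closure_induction with
  | mem a ha =>
    rcases ha with rfl | rfl
    · exact hx
    · exact hy
  | one => exact h1
  | mul a b _ _ iha ihb => exact hm a b iha ihb
  | inv a _ iha => exact hi a iha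

theorem left_mem_EE (x y : H) : x ∈ EE x y := Subgroup.subset_closure (by simp)
theorem right_mem_EE (x y : H) : y ∈ EE x y := Subgroup.subset_closure (by simp)

/-- Anything commuting with the two generators commutes with the group. -/
theorem comm_EE {x y g : H} (hx : g * x = x * g) (hy : g * y = y * g) {b : H} (hb : b ∈ EE x y) :
    g * b = b * g := by
  refine EE_induct (P := fun b => g * b = b * g) (by simp) hx hy ?_ ?_ hb
  · intro a b ha hb
    rw [← mul_assoc, ha, mul_assoc, hb, mul_assoc]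
  · intro a ha
    have : Commute g a := ha
    exact this.inv_right.eq

theorem NC.comm_EE' {t : ℕ} {x y : H} (h : NC t x y) {a b : H} (ha : a ∈ EE x y) (hb : b ∈ EE x y) :
    a * b = b * a := by
  have h1 : ∀ b ∈ EE x y, x * b = b * x := fun b hb => comm_EE rfl h.comm hb
  have h2 : ∀ b ∈ EE x y, y * b = b * y := fun b hb => comm_EE h.comm.symm rfl hb
  refine comm_EE (g := a) ?_ ?_ hb
  · exact (h1 a ha).symm
  · exact (h2 a ha).symm

theorem NC.pow_eq_one {t : ℕ} {x y : H} (h : NC t x y) {a : H} (ha : a ∈ EE x y) : a ^ t = 1 := by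
  have hcomm : ∀ a ∈ EE x y, ∀ b ∈ EE x y, a * b = b * a := fun a ha b hb => h.comm_EE' ha hb
  have : a ∈ EE x y ∧ a ^ t = 1 := by
    refine EE_induct (P := fun a => a ∈ EE x y ∧ a ^ t = 1) ⟨Subgroup.one_mem _, one_pow _⟩
      ⟨left_mem_EE x y, by rw [← h.ox, pow_orderOf_eq_one]⟩
      ⟨right_mem_EE x y, by rw [← h.oy, pow_orderOf_eq_one]⟩ ?_ ?_ ha
    · intro a b ha hb
      refine ⟨Subgroup.mul_mem _ ha.1 hb.1, ?_⟩
      have hc : Commute a b := hcomm a ha.1 b hb.1
      rw [hc.mul_pow, ha.2, hb.2, one_mul]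
    · intro a ha
      refine ⟨Subgroup.inv_mem _ ha.1, ?_⟩
      rw [inv_pow, ha.2, inv_one]
  exact this.2

theorem NC.order {t : ℕ} (ht : t.Prime) {x y : H} (h : NC t x y) {a : H} (ha : a ∈ EE x y)
    (ha1 : a ≠ 1) : orderOf a = t :=
  haveI : Fact t.Prime := ⟨ht⟩
  orderOf_eq_prime (h.pow_eq_one ha) ha1

/-- A non-cyclic pair generates a non-cyclic group. -/
theorem NC.not_cyclic [Finite H] {t : ℕ} {x y : H} (h : NC t x y) : ¬ IsCyclic (EE x y) := by
  intro hc
  let x' : EE x y := ⟨x, left_mem_EE x y⟩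
  let y' : EE x y := ⟨y, right_mem_EE x y⟩
  have h1 : Nat.card (Subgroup.zpowers x') = Nat.card (Subgroup.zpowers y') := by
    rw [Nat.card_zpowers, Nat.card_zpowers]
    simp only [x', y', Subgroup.orderOf_mk]
    rw [h.ox, h.oy]
  have h2 := Cfsg.Agent.Lib.FPF.UniqueOrderP.subgroup_eq_of_card_eq h1
  have h3 : y' ∈ Subgroup.zpowers x' := by
    rw [h2]
    exact Subgroup.mem_zpowers y'
  obtain ⟨k, hk⟩ := Subgroup.mem_zpowers_iff.mp h3
  apply h.nm
  refine Subgroup.mem_zpowers_iff.mpr ⟨k, ?_⟩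
  have := congrArg Subtype.val hk
  simpa [x', y'] using this

end Pairs

/-! ### The Frattini module of a normal `s`-subgroup -/

section Pkg

/-- The Frattini quotient of a normal `s`-subgroup, as a module. -/
theorem exists_pkg {Γ : Type u} [Group Γ] [Finite Γ] {s : ℕ} [hs : Fact s.Prime] (M : Subgroup Γ)
    [hMn : M.Normal] (hM : IsPGroup s M) :
    ∃ (V : Type u) (_ : AddCommGroup V) (_ : Module (ZMod s) V) (_ : FiniteDimensional (ZMod s) V)
      (ρ : Γ →* End (ZMod s) V),
      (M ≠ ⊥ → Nontrivial V) ∧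
      (∀ A : Subgroup Γ, (Nat.card A).Coprime s → ∀ v : V, v ≠ 0 → (∀ a ∈ A, ρ a v = v) →
        ∃ m ∈ M, m ≠ 1 ∧ ∀ a ∈ A, a * m = m * a) ∧
      (∀ g : Γ, (orderOf g).Coprime s → ρ g = 1 → ∀ m ∈ M, g * m = m * g) := by
  classical
  set Φ := (frattini M).map M.subtype with hΦ
  haveI hΦn : Φ.Normal := ConjAct.normal_of_characteristic_of_normal
  have hΦT : Φ ≤ M := Subgroup.map_subtype_le _
  have hcomm : ∀ a ∈ M, ∀ b ∈ M, a * b * a⁻¹ * b⁻¹ ∈ Φ := by
    intro a ha b hb
    have h1 := Cfsg.Agent.Lib.PGroups.Basic.commutator_le_frattini hM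
    have h2 : ⁅(⟨a, ha⟩ : M), (⟨b, hb⟩ : M)⁆ ∈ frattini M :=
      h1 (Subgroup.commutator_mem_commutator (by trivial) (by trivial))
    exact ⟨_, h2, rfl⟩
  have hexp : ∀ a ∈ M, a ^ s ∈ Φ := by
    intro a ha
    exact ⟨_, Cfsg.Agent.Lib.PGroups.Basic.pow_mem_frattini hM (⟨a, ha⟩ : M), rfl⟩
  obtain ⟨V, i1, i2, i3, ρ, π, hπadd, hπsurj, hπ0, hπact⟩ :=
    Cfsg.Agent.Lib.HallHigman.Section.exists_section_module (p := s) Φ M hΦT hcomm hexp
  have hπ1 : π 1 = 0 := by
    have := hπadd 1 1
    rw [mul_one] at this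
    simpa using this
  have hπinv : ∀ a, π a⁻¹ = - π a := by
    intro a
    have := hπadd a⁻¹ a
    rw [inv_mul_cancel, hπ1] at this
    exact (eq_neg_of_add_eq_zero_left this.symm)
  have hMs : Group.IsSolvable M := by
    haveI := hM.isNilpotent
    infer_instance
  have hcopA : ∀ A : Subgroup Γ, (Nat.card A).Coprime s → (Nat.card A).Coprime (Nat.card M) := by
    intro A hA
    obtain ⟨k, hk⟩ := IsPGroup.iff_card.mp hM
    rw [hk]
    exact hA.pow_right k
  have hfixmod : ∀ (A : Subgroup Γ), (Nat.card A).Coprime s → ∀ t : M, (∀ a ∈ A, ρ a (π t) = π t) →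
      ∃ c ∈ M ⊓ Subgroup.centralizer (A : Set Γ), (t : Γ)⁻¹ * c ∈ Φ := by
    intro A hA t ht
    apply exists_fixed_of_fixed_mod (K := M) (A := A) Φ
      (by rw [Subgroup.normalizer_eq_top]; exact le_top) (hcopA A hA) (Or.inr hMs) hΦT
      (by rw [Subgroup.normalizer_eq_top]; exact le_top)
      (by rw [Subgroup.normalizer_eq_top]; exact le_top) t.2
    intro a ha
    have hmem : a * t.1 * a⁻¹ ∈ M := hMn.conj_mem _ t.2 a
    have h1 := hπact a t ⟨_, hmem⟩ rfl
    rw [ht a ha] at h1
    have h2 : π (⟨_, hmem⟩ * t⁻¹) = 0 := by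
      rw [hπadd, hπinv, ← h1]
      abel
    exact (hπ0 _).mp h2
  refine ⟨V, i1, i2, i3, ρ, ?_, ?_, ?_⟩
  · intro hne
    by_contra hnt
    rw [not_nontrivial_iff_subsingleton] at hnt
    have hall : ∀ t : M, (t : Γ) ∈ Φ := fun t => (hπ0 t).mp (Subsingleton.elim _ _)
    have htop : frattini M = ⊤ := by
      rw [eq_top_iff]
      intro t _
      obtain ⟨x, hx, hxe⟩ := hall t
      have : x = t := Subtype.ext hxe
      rwa [← this]
    haveI : Nontrivial M := (Subgroup.bot_or_nontrivial M).resolve_left hne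
    have hmax : ∃ K : Subgroup M, IsCoatom K := by
      obtain ⟨K, hK, -⟩ := (eq_top_or_exists_le_coatom (⊥ : Subgroup M)).resolve_left bot_ne_top
      exact ⟨K, hK⟩
    obtain ⟨K, hK⟩ := hmax
    have h1 : frattini M ≤ K := frattini_le_coatom hK
    rw [htop] at h1
    exact hK.1 (top_le_iff.mp h1)
  · intro A hA v hv hfix
    obtain ⟨t, rfl⟩ := hπsurj v
    obtain ⟨c, ⟨hcM, hcC⟩, hc⟩ := hfixmod A hA t hfix
    refine ⟨c, hcM, ?_, ?_⟩
    · rintro rfl
      apply hv
      apply (hπ0 t).mpr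
      have := Φ.inv_mem hc
      simpa using this
    · intro a ha
      exact (Subgroup.mem_centralizer_iff.mp hcC a ha)
  · intro g hg hρ m hm
    -- `M = C_M(g) Φ(M)`
    have hAc : (Nat.card (Subgroup.zpowers g)).Coprime s := by
      rw [Nat.card_zpowers]
      exact hg
    let C : Subgroup M := (Subgroup.centralizer ((Subgroup.zpowers g : Subgroup Γ) : Set Γ)).subgroupOf M
    have hsup : C ⊔ frattini M = ⊤ := by
      rw [eq_top_iff]
      intro t _
      have hfix : ∀ a ∈ Subgroup.zpowers g, ρ a (π t) = π t := by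
        intro a ha
        obtain ⟨k, rfl⟩ := (mem_powers_iff_mem_zpowers.mpr ha)
        rw [map_pow, hρ, one_pow, Module.End.one_apply]
      obtain ⟨c, ⟨hcM, hcC⟩, hc⟩ := hfixmod _ hAc t hfix
      obtain ⟨x, hx, hxe⟩ := hc
      have e : t = ⟨c, hcM⟩ * x⁻¹ := by
        apply Subtype.ext
        have : (x : Γ) = (t : Γ)⁻¹ * c := hxe
        change (t : Γ) = c * (x : Γ)⁻¹
        rw [this]
        group
      rw [e]
      refine Subgroup.mul_mem_sup ?_ (Subgroup.inv_mem _ hx)
      rw [Subgroup.mem_subgroupOf]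
      exact hcC
    have htopC : C = ⊤ := by
      exact frattini_nongenerating hsup
    have h1 : (⟨m, hm⟩ : M) ∈ C := by
      rw [htopC]
      trivial
    rw [Subgroup.mem_subgroupOf] at h1
    exact (Subgroup.mem_centralizer_iff.mp h1 g (Subgroup.mem_zpowers g))

end Pkg

end Cfsg.Agent.Lib.FourP
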