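/-
Four primes pairwise joined: elementary group theory.
-/
import Cfsg.Agent.Lib.FourP.Basic
import Cfsg.Agent.Lib.Core.Basic
import Cfsg.Agent.Lib.Solvable.Fitting
import Cfsg.Agent.Lib.Solvable.HallRel
import Cfsg.Agent.Lib.PGroups.NormalRankTwo
import Cfsg.Agent.Lib.Coprime.Hall

set_option autoImplicit false
set_option linter.style.haveILetI false
set_option linter.unusedSectionVars false
set_option linter.unusedVariables false

namespace Cfsg.Agent.Lib.FourP

open Module Cfsg Subgroup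
open Cfsg.Agent.Lib.Core.Basic Cfsg.Agent.Lib.Solvable.Fitting
open scoped commutatorElement Pointwise

universe u v

section Elem

variable {H : Type u} [Group H] [Finite H]

/-- A non-trivial power of an element of prime order generates it. -/
theorem mem_zpowers_of_prime {x c : H} {b : ℕ} (hb : b.Prime) (hx : orderOf x = b)
    (hc : c ∈ zpowers x) (hc1 : c ≠ 1) : x ∈ zpowers c := by
  have hle : zpowers c ≤ zpowers x := (zpowers_le).mpr hc
  have hcard : Nat.card (zpowers c) = Nat.card (zpowers x) := by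
    rw [Nat.card_zpowers, Nat.card_zpowers, hx]
    have h1 : orderOf c ∣ orderOf x := orderOf_dvd_of_mem_zpowers hc
    rw [hx] at h1
    rcases (Nat.dvd_prime hb).mp h1 with h | h
    · exact absurd (orderOf_eq_one_iff.mp h) hc1
    · exact h
  have := Subgroup.eq_of_le_of_card_ge hle hcard.ge
  rw [this]
  exact mem_zpowers x

theorem comm_of_zpow_comm {c g : H} (h : c * g = g * c) {y : H} (hy : y ∈ zpowers c) :
    y * g = g * y := by
  obtain ⟨k, rfl⟩ := mem_zpowers_iff.mp hy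
  have : Commute c g := h
  exact (this.zpow_left k).eq

/-- Commuting with a non-trivial power of a prime order element. -/
theorem comm_of_mem_zpowers {x c g : H} {b : ℕ} (hb : b.Prime) (hx : orderOf x = b)
    (hc : c ∈ zpowers x) (hc1 : c ≠ 1) (h : c * g = g * c) : x * g = g * x :=
  comm_of_zpow_comm h (mem_zpowers_of_prime hb hx hc hc1)

/-- A nontrivial element of a `c`-subgroup has a power of order `c`. -/
theorem exists_pow_order {c : ℕ} [hc : Fact c.Prime] {K : Subgroup H} (hK : IsPGroup c K) {k : H}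
    (hk : k ∈ K) (hk1 : k ≠ 1) : ∃ m : ℕ, orderOf (k ^ m) = c := by
  have h1 : c ∣ orderOf (⟨k, hk⟩ : K) := hK.dvd_orderOf (fun h => hk1 (congrArg Subtype.val h))
  rw [Subgroup.orderOf_mk] at h1
  exact ⟨orderOf k / c, orderOf_pow_orderOf_div (orderOf_pos k).ne' h1⟩

theorem exists_order_of_ne_bot {c : ℕ} [hc : Fact c.Prime] {K : Subgroup H} (hK : IsPGroup c K)
    (hne : K ≠ ⊥) : ∃ k ∈ K, orderOf k = c := by
  obtain ⟨k, hk, hk1⟩ := (Subgroup.ne_bot_iff_exists_ne_one (H := K)).mp hne |>.imp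
    (fun k h => h) |> fun ⟨k, h⟩ => (⟨k.1, k.2, fun h' => h (Subtype.ext h')⟩ : ∃ k ∈ K, k ≠ 1)
  obtain ⟨m, hm⟩ := exists_pow_order hK hk hk1
  exact ⟨_, K.pow_mem hk m, hm⟩

theorem card_coprime_of_isPGroup {c : ℕ} [hc : Fact c.Prime] {K : Subgroup H} (hK : IsPGroup c K)
    {n : ℕ} (hn : n.Coprime c) : (Nat.card K).Coprime n := by
  obtain ⟨k, hk⟩ := IsPGroup.iff_card.mp hK
  rw [hk]
  exact (hn.symm.pow_left k)

theorem card_zpowers_coprime {c a : ℕ} [hc : Fact c.Prime] (ha : a.Prime) (hac : a ≠ c)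
    {K : Subgroup H} (hK : IsPGroup c K) {x : H} (hx : orderOf x = a) :
    (Nat.card (zpowers x)).Coprime (Nat.card K) := by
  rw [Nat.card_zpowers, hx]
  exact (card_coprime_of_isPGroup hK ((Nat.coprime_primes ha hc.out).mpr hac)).symm

theorem mem_centralizer_zpowers_iff {x u : H} :
    u ∈ centralizer ((zpowers x : Subgroup H) : Set H) ↔ x * u = u * x := by
  rw [mem_centralizer_iff]
  constructor
  · intro h
    exact h x (mem_zpowers x)
  · intro h g hg
    exact comm_of_zpow_comm h hg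

theorem mem_normalizer_zpowers_of_comm {g y : H} (h : g * y = y * g) :
    g ∈ normalizer ((zpowers y : Subgroup H) : Set H) := by
  rw [mem_normalizer_iff]
  intro u
  have e : g * u * g⁻¹ = u ∨ True := Or.inr trivial
  constructor
  · intro hu
    have h1 : g * u * g⁻¹ = u := by
      have h2 : g * u = u * g := comm_of_zpow_comm (c := y) (g := g) h.symm hu |>.symm
      rw [h2]
      group
    rwa [h1]
  · intro hu
    have h2 : g * (g * u * g⁻¹) = (g * u * g⁻¹) * g :=
      (comm_of_zpow_comm (c := y) (g := g) h.symm hu).symm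
    have h1 : g * u * g⁻¹ = u := by
      have h3 : g * (g * u * g⁻¹) * g⁻¹ = g * u * g⁻¹ := by
        rw [h2]
        group
      have h4 : g * (g * u * g⁻¹) * g⁻¹ = g * (g * u * g⁻¹ * g⁻¹) := by group
      rw [h4] at h3
      have h5 : g * u * g⁻¹ * g⁻¹ = u * g⁻¹ := mul_left_cancel (a := g) (by rw [h3]; group)
      exact mul_right_cancel h5
    rwa [h1] at hu

theorem mem_normalizer_inf {g : H} {K L : Subgroup H} (h1 : g ∈ normalizer (K : Set H))
    (h2 : g ∈ normalizer (L : Set H)) : g ∈ normalizer ((K ⊓ L : Subgroup H) : Set H) := by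
  rw [mem_normalizer_iff] at *
  intro u
  rw [mem_inf, mem_inf, h1 u, h2 u]

theorem mem_normalizer_of_normal {K : Subgroup H} (hK : K.Normal) (g : H) :
    g ∈ normalizer (K : Set H) := by
  rw [normalizer_eq_top]
  trivial

/-- An element commuting with `x` normalizes `C_K(x)`. -/
theorem mem_normalizer_centralizer {g x : H} {K : Subgroup H} (h1 : g ∈ normalizer (K : Set H))
    (h2 : g * x = x * g) :
    g ∈ normalizer ((K ⊓ centralizer ((zpowers x : Subgroup H) : Set H) : Subgroup H) : Set H) := by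
  refine mem_normalizer_inf h1 ?_
  rw [mem_normalizer_iff]
  intro u
  rw [mem_centralizer_zpowers_iff, mem_centralizer_zpowers_iff]
  constructor
  · intro h
    calc x * (g * u * g⁻¹) = (x * g) * u * g⁻¹ := by group
      _ = g * (x * u) * g⁻¹ := by rw [← h2]; group
      _ = g * (u * x) * g⁻¹ := by rw [h]
      _ = g * u * (g⁻¹ * x * g) * g⁻¹ := by
        rw [show g⁻¹ * x * g = x from by rw [mul_assoc, ← h2]; group]
        group
      _ = g * u * g⁻¹ * x := by group
  · intro h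
    have h3 : g * (x * u) * g⁻¹ = g * (u * x) * g⁻¹ := by
      calc g * (x * u) * g⁻¹ = (x * g) * u * g⁻¹ := by rw [← h2]; group
        _ = x * (g * u * g⁻¹) := by group
        _ = g * u * g⁻¹ * x := h
        _ = g * u * (g⁻¹ * x * g) * g⁻¹ := by group
        _ = g * (u * x) * g⁻¹ := by
          rw [show g⁻¹ * x * g = x from by rw [mul_assoc, ← h2]; group]
          group
    exact mul_left_cancel (mul_right_cancel h3)

/-- The factors of a commuting product are powers of it. -/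
theorem mem_zpowers_mul {x y : H} {a b : ℕ} (ha : a.Prime) (hb : b.Prime) (hab : a ≠ b)
    (hx : orderOf x = a) (hy : orderOf y = b) (hxy : x * y = y * x) : x ∈ zpowers (x * y) := by
  have hc : Commute x y := hxy
  have h1 : (x * y) ^ b = x ^ b := by
    rw [hc.mul_pow, ← hy, pow_orderOf_eq_one, mul_one]
  have h2 : x ^ b ≠ 1 := by
    intro h
    have := orderOf_dvd_of_pow_eq_one h
    rw [hx] at this
    exact hab ((Nat.prime_dvd_prime_iff_eq ha hb).mp this)
  have h3 : x ∈ zpowers (x ^ b) := mem_zpowers_of_prime ha hx (npow_mem_zpowers x b) h2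
  have h4 : x ^ b ∈ zpowers (x * y) := by
    rw [← h1]
    exact npow_mem_zpowers _ b
  exact (zpowers_le.mpr h4) h3

/-- Non-trivial powers of commuting products. -/
theorem comm_of_zpowers_mul {x y z g : H} {a b : ℕ} (ha : a.Prime) (hb : b.Prime) (hab : a ≠ b)
    (hx : orderOf x = a) (hy : orderOf y = b) (hxy : x * y = y * x) (hz : z ∈ zpowers (x * y))
    (hz1 : z ≠ 1) (hzg : z * g = g * z) : x * g = g * x ∨ y * g = g * y := by
  have hc : Commute x y := hxy
  obtain ⟨n, rfl⟩ := mem_zpowers_iff.mp hz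
  by_cases hn : x ^ n = 1
  · right
    have h1 : (x * y) ^ n = y ^ n := by rw [hc.mul_zpow, hn, one_mul]
    rw [h1] at hz1 hzg
    exact comm_of_mem_zpowers hb hy (zpow_mem_zpowers y n) hz1 hzg
  · left
    have h1 : ((x * y) ^ n) ^ b = (x ^ n) ^ b := by
      rw [hc.mul_zpow, (show Commute (x ^ n) (y ^ n) from hc.zpow_zpow n n).mul_pow]
      have : (y ^ n) ^ b = 1 := by
        rw [← zpow_natCast, ← zpow_mul, mul_comm, zpow_mul, zpow_natCast, ← hy, pow_orderOf_eq_one,
          one_zpow]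
      rw [this, mul_one]
    have h2 : (x ^ n) ^ b ≠ 1 := by
      intro h
      have h3 : orderOf (x ^ n) ∣ b := orderOf_dvd_of_pow_eq_one h
      have h4 : orderOf (x ^ n) ∣ a := by
        rw [← hx]
        exact orderOf_dvd_of_mem_zpowers (zpow_mem_zpowers x n)
      have h5 : orderOf (x ^ n) ∣ Nat.gcd a b := Nat.dvd_gcd h4 h3
      rw [(Nat.coprime_primes ha hb).mpr hab] at h5
      exact hn (orderOf_eq_one_iff.mp (Nat.dvd_one.mp h5))
    have h6 : (x ^ n) ^ b ∈ zpowers x := Subgroup.pow_mem _ (zpow_mem_zpowers x n) b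
    have h7 : ((x * y) ^ n) ^ b * g = g * ((x * y) ^ n) ^ b :=
      ((show Commute ((x * y) ^ n) g from hzg).pow_left b).eq
    rw [h1] at h7
    exact comm_of_mem_zpowers ha hx h6 h2 h7

end Elem


section Numbers

variable {H : Type u} [Group H] [Finite H]

/-- An element of prime order `r` normalizing a group of prime order `p` non-trivially: `r ∣ p - 1`. -/
theorem dvd_sub_one_of_normalizes {y g : H} {p r : ℕ} (hp : p.Prime) (hr : r.Prime)
    (hy : orderOf y = p) (hg : g ^ r = 1) (hn : g * y * g⁻¹ ∈ zpowers y) (hne : g * y ≠ y * g) :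
    r ∣ p - 1 := by
  haveI : Fact p.Prime := ⟨hp⟩
  obtain ⟨k, hk⟩ := mem_powers_iff_mem_zpowers.mpr hn
  have hk' : y ^ k = g * y * g⁻¹ := hk
  have hconj : ∀ m : ℕ, g * y ^ m * g⁻¹ = y ^ (k * m) := by
    intro m
    rw [pow_mul, hk', conj_pow]
  have hiter : ∀ i : ℕ, g ^ i * y * (g ^ i)⁻¹ = y ^ (k ^ i) := by
    intro i
    induction i with
    | zero => simp
    | succ i ih =>
      have : g ^ (i + 1) * y * (g ^ (i + 1))⁻¹ = g * (g ^ i * y * (g ^ i)⁻¹) * g⁻¹ := by
        rw [pow_succ']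
        group
      rw [this, ih, hconj, pow_succ']
  have h1 := hiter r
  rw [hg] at h1
  simp only [one_mul, inv_one, mul_one] at h1
  have h2 : y ^ 1 = y ^ (k ^ r) := by rw [pow_one]; exact h1
  rw [pow_eq_pow_iff_modEq, hy] at h2
  have h3 : ((k ^ r : ℕ) : ZMod p) = 1 := by
    have := (ZMod.natCast_eq_natCast_iff _ _ _).mpr h2
    simpa using this.symm
  have hk1 : (k : ZMod p) ≠ 1 := by
    intro h
    apply hne
    have h4 : k ≡ 1 [MOD p] := by
      rw [← ZMod.natCast_eq_natCast_iff]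
      simpa using h
    have h5 : y ^ k = y ^ 1 := by
      rw [pow_eq_pow_iff_modEq, hy]
      exact h4
    rw [pow_one] at h5
    rw [h5] at hk'
    calc g * y = (g * y * g⁻¹) * g := by group
      _ = y * g := by rw [← hk']
  have hk0 : (k : ZMod p) ≠ 0 := by
    intro h
    rw [Nat.cast_pow, h, zero_pow hr.ne_zero] at h3
    exact zero_ne_one h3
  haveI : Fact r.Prime := ⟨hr⟩
  have hord : orderOf (k : ZMod p) = r := by
    apply orderOf_eq_prime
    · rw [← Nat.cast_pow]
      exact h3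
    · exact hk1
  rw [← hord]
  exact orderOf_dvd_of_pow_eq_one (ZMod.pow_card_sub_one_eq_one hk0)

end Numbers

section Uniq

variable {H : Type u} [Group H] [Finite H]

/-- A non-cyclic `p`-subgroup, `p` odd, has a non-cyclic pair. -/
theorem exists_NC_of_not_cyclic {p : ℕ} [hp : Fact p.Prime] (hp2 : p ≠ 2) {K : Subgroup H}
    (hK : IsPGroup p K) (hnc : ¬ IsCyclic K) : ∃ x ∈ K, ∃ y ∈ K, NC p x y := by
  classical
  obtain ⟨A, hAn, hAe, hA⟩ :=
    Cfsg.Agent.Lib.PGroups.NormalRankTwo.exists_normal_elementaryAbelian_sq hp2 hK hnc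
  have hpp := hp.out
  have hpow : ∀ a ∈ A, a ^ p = 1 := hAe.2
  have hcomm : ∀ a ∈ A, ∀ b ∈ A, a * b = b * a := by
    intro a ha b hb
    haveI := hAe.1
    exact congrArg Subtype.val (mul_comm' (⟨a, ha⟩ : A) ⟨b, hb⟩)
  have hlt : p < p ^ 2 := by
    have := hpp.one_lt
    nlinarith [hpp.two_le]
  have hAne : A ≠ ⊥ := by
    rintro rfl
    rw [Subgroup.card_bot] at hA
    have := hpp.one_lt
    nlinarith [hpp.two_le]
  obtain ⟨⟨x, hxA⟩, hx1⟩ := (Subgroup.ne_bot_iff_exists_ne_one).mp hAne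
  have hx1' : x ≠ 1 := fun h => hx1 (Subtype.ext h)
  have hox : orderOf x = p := orderOf_eq_prime (hpow x hxA) hx1'
  have hex : ∃ y ∈ A, y ∉ zpowers x := by
    by_contra hcon
    push Not at hcon
    have hle : A ≤ zpowers x := hcon
    have := Subgroup.card_le_of_le hle
    rw [hA, Nat.card_zpowers, hox] at this
    omega
  obtain ⟨y, hyA, hyn⟩ := hex
  have hy1 : y ≠ 1 := by
    rintro rfl
    exact hyn (one_mem _)
  refine ⟨(x : H), x.2, (y : H), y.2, ?_⟩
  have h1 : ((x : K) : H) ^ p = 1 := by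
    have := hpow x hxA
    exact_mod_cast congrArg Subtype.val this
  refine ⟨?_, ?_, ?_, ?_⟩
  · rw [Subgroup.orderOf_coe]
    exact hox
  · rw [Subgroup.orderOf_coe]
    exact orderOf_eq_prime (hpow y hyA) hy1
  · exact congrArg Subtype.val (hcomm x hxA y hyA)
  · intro hmem
    apply hyn
    obtain ⟨k, hk⟩ := mem_zpowers_iff.mp hmem
    refine mem_zpowers_iff.mpr ⟨k, Subtype.ext ?_⟩
    simpa using hk

/-- A central element of order `p` of a Sylow subgroup in `O_p`. -/
theorem exists_central_of_sylow {p : ℕ} [hp : Fact p.Prime] (hW : pCore p H ≠ ⊥) (P : Sylow p H) :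
    ∃ z ∈ pCore p H, orderOf z = p ∧ ∀ g ∈ (P : Subgroup H), z * g = g * z := by
  have hle : pCore p H ≤ P := pCore_le_sylow P
  have hne : (pCore p H).subgroupOf (P : Subgroup H) ≠ ⊥ := by
    intro h
    apply hW
    rw [Subgroup.subgroupOf_eq_bot] at h
    exact disjoint_iff.mp (h.mono_right le_rfl) |> fun h' => by
      rwa [inf_eq_left.mpr hle] at h'
  obtain ⟨z, hz, hzc, hzo⟩ := Cfsg.Agent.Lib.PGroups.Basic.exists_central_orderOf_eq
    P.isPGroup' _ hne
  refine ⟨z, hz, ?_, ?_⟩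
  · exact (Subgroup.orderOf_coe z).trans hzo
  · intro g hg
    have := (Subgroup.mem_center_iff.mp hzc) ⟨g, hg⟩
    exact (congrArg Subtype.val this).symm

/-- With `O_p ≠ 1` and no non-cyclic pair, there is a unique subgroup of order `p`. -/
theorem exists_unique_order {p : ℕ} [hp : Fact p.Prime] (hW : pCore p H ≠ ⊥)
    (hnc : ∀ c₁ c₂ : H, ¬ NC p c₁ c₂) : ∃ z : H, orderOf z = p ∧ ∀ y, orderOf y = p → y ∈ zpowers z := by
  classical
  have hmem : ∀ (P : Sylow p H) (z y : H), orderOf z = p → orderOf y = p → z * y = y * z → y ∈ zpowers z := by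
    intro P z y hz hy hzy
    by_contra hn
    exact hnc z y ⟨hz, hy, hzy, hn⟩
  have hin : ∀ y : H, orderOf y = p → y ∈ pCore p H := by
    intro y hy
    have hpg : IsPGroup p (zpowers y) := by
      rw [IsPGroup.iff_card, Nat.card_zpowers, hy]
      exact ⟨1, (pow_one p).symm⟩
    obtain ⟨P, hP⟩ := hpg.exists_le_sylow
    obtain ⟨z, hzW, hzo, hzc⟩ := exists_central_of_sylow hW P
    have h1 := hmem P z y hzo hy (hzc y (hP (mem_zpowers y)))
    exact (zpowers_le.mpr hzW) h1
  let P₀ : Sylow p H := default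
  obtain ⟨z, hzW, hzo, hzc⟩ := exists_central_of_sylow hW P₀
  refine ⟨z, hzo, ?_⟩
  intro y hy
  exact hmem P₀ z y hzo hy (hzc y (pCore_le_sylow P₀ (hin y hy)))

/-- `O_r = 1` in a `{q, r}`-group gives `O_{q'} = 1`. -/
theorem pPrimeCore_eq_bot {q r : ℕ} [hq : Fact q.Prime] [hr : Fact r.Prime]
    (hπ : ∀ t : ℕ, t.Prime → t ∣ Nat.card H → t = q ∨ t = r) (hO : pCore r H = ⊥) :
    pPrimeCore q H = ⊥ := by
  have hcop : (Nat.card (pPrimeCore q H)).Coprime q := pPrimeCore_coprime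
  have hP : IsPGroup r (pPrimeCore q H) := by
    rw [IsPGroup.iff_card]
    refine ⟨_, Nat.eq_prime_pow_of_unique_prime_dvd Nat.card_pos.ne' ?_⟩
    intro d hd hdv
    rcases hπ d hd (hdv.trans (Subgroup.card_subgroup_dvd_card _)) with h | h
    · subst h
      exact absurd (Nat.Coprime.eq_one_of_dvd (hcop.symm) hdv) hd.one_lt.ne'
    · exact h
  have := le_pCore (inferInstance : (pPrimeCore q H).Normal) hP
  rw [hO] at this
  exact le_bot_iff.mp this

/-- Abstract lemma Z. -/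
theorem lemma_Z [Group.IsSolvable H] {q r : ℕ} [hq : Fact q.Prime] [hr : Fact r.Prime] (hqr : q ≠ r)
    (hπ : ∀ t : ℕ, t.Prime → t ∣ Nat.card H → t = q ∨ t = r) (hdvd : r ∣ Nat.card H)
    (hcent : ∀ b : H, orderOf b = r → ∀ u ∈ pCore q H, b * u = u * b)
    (hnc : ∀ c₁ c₂ : H, ¬ NC r c₁ c₂) : ∃ z : H, orderOf z = r ∧ ∀ y, orderOf y = r → y ∈ zpowers z := by
  apply exists_unique_order _ hnc
  intro hO
  have h1 := pPrimeCore_eq_bot hπ hO
  have h2 := centralizer_pCore_le q h1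
  obtain ⟨b, hb⟩ := exists_prime_orderOf_dvd_card' r hdvd
  have hbC : b ∈ centralizer ((pCore q H : Subgroup H) : Set H) := by
    rw [mem_centralizer_iff]
    intro u hu
    exact (hcent b hb u hu).symm
  have hbq := h2 hbC
  have hq' : IsPGroup q (pCore q H) := pCore_isPGroup
  obtain ⟨k, hk⟩ := (IsPGroup.iff_orderOf (p := q)).mp hq' ⟨b, hbq⟩
  rw [Subgroup.orderOf_mk, hb] at hk
  have : r ∣ q ^ k := by rw [hk]
  exact hqr ((Nat.prime_dvd_prime_iff_eq hr.out hq.out).mp (hr.out.dvd_of_dvd_pow this)).symm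

/-- The two prime lemma. -/
theorem two_prime_lemma [Group.IsSolvable H] {p r : ℕ} [hp : Fact p.Prime] [hr : Fact r.Prime]
    (hpr : p ≠ r) (hπ : ∀ t : ℕ, t.Prime → t ∣ Nat.card H → t = r ∨ t = p) {x t : H}
    (hx : orderOf x = p) (ht : orderOf t = r) (hne : x * t ≠ t * x)
    (hnc : ∀ c₁ c₂ : H, ¬ NC p c₁ c₂)
    (hHH : ∀ K : Subgroup H, IsPGroup r K → x ∈ normalizer (K : Set H) → ∀ g ∈ K, x * g = g * x)
    (hnum : ¬ r ∣ p - 1) : False := by
  by_cases hO : pCore p H = ⊥
  · have h1 := pPrimeCore_eq_bot hπ hO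
    have h2 := centralizer_pCore_le r h1
    have hxC : x ∈ centralizer ((pCore r H : Subgroup H) : Set H) := by
      rw [mem_centralizer_iff]
      intro u hu
      refine (hHH (pCore r H) pCore_isPGroup ?_ u hu).symm
      rw [normalizer_eq_top]
      trivial
    have hxr := h2 hxC
    have hr' : IsPGroup r (pCore r H) := pCore_isPGroup
    obtain ⟨k, hk⟩ := (IsPGroup.iff_orderOf (p := r)).mp hr' ⟨x, hxr⟩
    rw [Subgroup.orderOf_mk, hx] at hk
    have : p ∣ r ^ k := by rw [hk]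
    exact hpr ((Nat.prime_dvd_prime_iff_eq hp.out hr.out).mp (hp.out.dvd_of_dvd_pow this))
  · obtain ⟨z, hzo, hz⟩ := exists_unique_order hO hnc
    have hx1 : x ≠ 1 := by
      rintro rfl
      rw [orderOf_one] at hx
      exact hp.out.one_lt.ne hx
    have hzx : z ∈ zpowers x := mem_zpowers_of_prime hp.out hzo (hz x hx) hx1
    have hconj : t * x * t⁻¹ ∈ zpowers x := by
      have h1 : orderOf (t * x * t⁻¹) = p := by
        rw [← hx]
        exact orderOf_injective (MulAut.conj t).toMonoidHom (MulAut.conj t).injective x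
      exact (zpowers_le.mpr hzx) (hz _ h1)
    apply hnum
    refine dvd_sub_one_of_normalizes hp.out hr.out hx (by rw [← ht, pow_orderOf_eq_one]) hconj ?_
    exact fun h => hne h.symm

end Uniq

section Comm

variable {H : Type u} [Group H] [Finite H]

theorem mul_pow_mem_normal {A : Subgroup H} (hA : A.Normal) {u b : H} (hu : u ∈ A) (n : ℕ) :
    (u * b) ^ n * (b ^ n)⁻¹ ∈ A := by
  induction n with
  | zero => simp
  | succ n ih =>
    have e : (u * b) ^ (n + 1) * (b ^ (n + 1))⁻¹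
        = ((u * b) ^ n * (b ^ n)⁻¹) * (b ^ n * u * (b ^ n)⁻¹) := by
      rw [pow_succ, pow_succ]
      group
    rw [e]
    exact A.mul_mem ih (hA.conj_mem u hu _)

/-- `w = 1` from `(u w b)^n = 1`. -/
theorem eq_one_of_mul_pow {A B : Subgroup H} (hA : A.Normal) (hAB : A ⊓ B = ⊥) {q n : ℕ}
    [hq : Fact q.Prime] (hB : IsPGroup q B) (hn : n.Coprime q) {u w b : H} (hu : u ∈ A) (hw : w ∈ B)
    (hwu : w * u = u * w) (hwb : w * b = b * w) (hb : b ^ n = 1) (h : (u * w * b) ^ n = 1) : w = 1 := by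
  have e1 : u * w * b = w * (u * b) := by
    rw [← mul_assoc, hwu]
  have hc : Commute w (u * b) := by
    show w * (u * b) = (u * b) * w
    calc w * (u * b) = (w * u) * b := by group
      _ = (u * w) * b := by rw [hwu]
      _ = u * (w * b) := by group
      _ = u * (b * w) := by rw [hwb]
      _ = u * b * w := by group
  rw [e1, hc.mul_pow] at h
  have h1 := mul_pow_mem_normal hA (b := b) hu n
  rw [hb, inv_one, mul_one] at h1
  have h2 : w ^ n = ((u * b) ^ n)⁻¹ := eq_inv_of_mul_eq_one_left h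
  have h3 : w ^ n ∈ A ⊓ B := ⟨by rw [h2]; exact A.inv_mem h1, B.pow_mem hw n⟩
  rw [hAB, mem_bot] at h3
  obtain ⟨k, hk⟩ := (IsPGroup.iff_orderOf (p := q)).mp hB ⟨w, hw⟩
  rw [Subgroup.orderOf_mk] at hk
  have h4 : orderOf w ∣ n := orderOf_dvd_of_pow_eq_one h3
  have h5 : (orderOf w).Coprime n := by
    rw [hk]
    exact (Nat.Coprime.symm hn).pow_left k
  have h6 : orderOf w = 1 := Nat.Coprime.eq_one_of_dvd h5 h4
  exact orderOf_eq_one_iff.mp h6

/-- Commuting from a commutator lying in the product of two normal subgroups. -/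
theorem comm_of_commutator_mem {A B : Subgroup H} (hA : A.Normal) {p q : ℕ} [hp : Fact p.Prime]
    [hq : Fact q.Prime] (hpq : p ≠ q) (hAp : IsPGroup p A) (hBp : IsPGroup q B) {c d : H}
    (hc : orderOf c = p) (hd : orderOf d = q) (hcB : ∀ w ∈ B, c * w = w * c)
    (hdA : ∀ u ∈ A, d * u = u * d) (hAB : ∀ u ∈ A, ∀ w ∈ B, u * w = w * u) {u w : H} (hu : u ∈ A)
    (hw : w ∈ B) (ht : d * c * d⁻¹ * c⁻¹ = u * w) : c * d = d * c := by
  have hinf : A ⊓ B = ⊥ :=
    disjoint_iff.mp (IsPGroup.disjoint_of_ne p q hpq A B hAp hBp)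
  have e1 : d * c * d⁻¹ = u * w * c := by
    rw [← ht]
    group
  have h1 : (u * w * c) ^ p = 1 := by
    rw [← e1, conj_pow, ← hc, pow_orderOf_eq_one]
    group
  have hw1 : w = 1 := eq_one_of_mul_pow hA hinf hBp ((Nat.coprime_primes hp.out hq.out).mpr hpq) hu hw
    (hAB u hu w hw).symm (hcB w hw).symm (by rw [← hc, pow_orderOf_eq_one]) h1
  subst hw1
  rw [mul_one] at e1
  have hiter : ∀ i : ℕ, d ^ i * c * (d ^ i)⁻¹ = u ^ i * c := by
    intro i
    induction i with
    | zero => simp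
    | succ i ih =>
      have e2 : d ^ (i + 1) * c * (d ^ (i + 1))⁻¹ = d * (d ^ i * c * (d ^ i)⁻¹) * d⁻¹ := by
        rw [pow_succ']
        group
      have hdu : Commute d (u ^ i) := (show Commute d u from hdA u hu).pow_right i
      have e3 : d * (u ^ i * c) * d⁻¹ = u ^ i * (d * c * d⁻¹) := by
        calc d * (u ^ i * c) * d⁻¹ = (d * u ^ i) * c * d⁻¹ := by group
          _ = (u ^ i * d) * c * d⁻¹ := by rw [hdu.eq]
          _ = _ := by group
      rw [e2, ih, e3, e1, pow_succ]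
      group
  have h2 := hiter q
  rw [← hd, pow_orderOf_eq_one] at h2
  simp only [one_mul, inv_one, mul_one] at h2
  have h3 : u ^ q = 1 := by
    have : u ^ orderOf d * c = 1 * c := by rw [one_mul]; exact h2.symm
    rw [hd] at this
    exact mul_right_cancel this
  have hu1 : u = 1 := by
    obtain ⟨k, hk⟩ := (IsPGroup.iff_orderOf (p := p)).mp hAp ⟨u, hu⟩
    rw [Subgroup.orderOf_mk] at hk
    have h4 : orderOf u ∣ q := orderOf_dvd_of_pow_eq_one h3
    have h5 : (orderOf u).Coprime q := by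
      rw [hk]
      exact ((Nat.coprime_primes hp.out hq.out).mpr hpq).pow_left k
    exact orderOf_eq_one_iff.mp (Nat.Coprime.eq_one_of_dvd h5 h4)
  subst hu1
  rw [one_mul] at e1
  calc c * d = (d * c * d⁻¹) * d := by rw [e1]
    _ = d * c := by group

/-- Fixed point free actions: the commutator map is onto. -/
theorem exists_comm_eq_of_fpf {A : Subgroup H} {b : H} (hb : b ∈ normalizer (A : Set H))
    (hfp : ∀ u ∈ A, b * u = u * b → u = 1) {u : H} (hu : u ∈ A) : ∃ z ∈ A, z⁻¹ * (b * z * b⁻¹) = u := by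
  have hmem : ∀ z : A, (z : H)⁻¹ * (b * z * b⁻¹) ∈ A := by
    intro z
    exact A.mul_mem (A.inv_mem z.2) ((mem_normalizer_iff.mp hb z).mp z.2)
  let φ : A → A := fun z => ⟨_, hmem z⟩
  have hφ : Function.Injective φ := by
    intro z z' h
    have h1 : (z : H)⁻¹ * (b * z * b⁻¹) = (z' : H)⁻¹ * (b * z' * b⁻¹) := congrArg Subtype.val h
    have h2 : (z : H)⁻¹ * b * z = (z' : H)⁻¹ * b * z' := by
      have : (z : H)⁻¹ * (b * z * b⁻¹) * b = (z' : H)⁻¹ * (b * z' * b⁻¹) * b := by rw [h1]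
      simpa [mul_assoc] using this
    have h3 : ((z' : H) * (z : H)⁻¹) * b = b * ((z' : H) * (z : H)⁻¹) := by
      calc ((z' : H) * (z : H)⁻¹) * b = z' * ((z : H)⁻¹ * b * z) * (z : H)⁻¹ := by group
        _ = z' * ((z' : H)⁻¹ * b * z') * (z : H)⁻¹ := by rw [h2]
        _ = _ := by group
    have h4 := hfp _ (A.mul_mem z'.2 (A.inv_mem z.2)) h3.symm
    apply Subtype.ext
    exact (mul_inv_eq_one.mp h4).symm
  obtain ⟨z, hz⟩ := (Finite.injective_iff_surjective.mp hφ) ⟨u, hu⟩
  exact ⟨z, z.2, congrArg Subtype.val hz⟩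

/-- Commutators act trivially on a cyclic normal subgroup. -/
theorem comm_mem_centralizer_of_isCyclic {D : Subgroup H} (hD : IsCyclic D) {x y : H}
    (hx : x ∈ Subgroup.normalizer (D : Set H)) (hy : y ∈ Subgroup.normalizer (D : Set H)) :
    x * y * x⁻¹ * y⁻¹ ∈ Subgroup.centralizer (D : Set H) := by
  obtain ⟨⟨d, hd⟩, hgen⟩ := hD.exists_generator
  have hgen' : ∀ v ∈ D, ∃ m : ℤ, d ^ m = v := by
    intro v hv
    obtain ⟨m, hm⟩ := Subgroup.mem_zpowers_iff.mp (hgen ⟨v, hv⟩)
    exact ⟨m, congrArg Subtype.val hm⟩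
  obtain ⟨i, hi⟩ := hgen' _ ((Subgroup.mem_normalizer_iff.mp hx d).mp hd)
  obtain ⟨j, hj⟩ := hgen' _ ((Subgroup.mem_normalizer_iff.mp hy d).mp hd)
  have hxz : ∀ m : ℤ, x * d ^ m * x⁻¹ = (d ^ i) ^ m := by
    intro m
    rw [hi, conj_zpow]
  have hyz : ∀ m : ℤ, y * d ^ m * y⁻¹ = (d ^ j) ^ m := by
    intro m
    rw [hj, conj_zpow]
  have hcomm : ∀ u ∈ D, (x * y) * u * (x * y)⁻¹ = (y * x) * u * (y * x)⁻¹ := by
    intro u hu
    obtain ⟨m, rfl⟩ := hgen' u hu
    have e1 : (x * y) * d ^ m * (x * y)⁻¹ = x * (y * d ^ m * y⁻¹) * x⁻¹ := by group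
    have e2 : (y * x) * d ^ m * (y * x)⁻¹ = y * (x * d ^ m * x⁻¹) * y⁻¹ := by group
    rw [e1, e2, hyz, hxz, ← zpow_mul, ← zpow_mul, hxz, hyz, ← zpow_mul, ← zpow_mul]
    congr 1
    ring
  refine Subgroup.mem_centralizer_iff.mpr fun v hv => ?_
  have hu : (y * x)⁻¹ * v * (y * x) ∈ D := by
    have := (Subgroup.mem_normalizer_iff.mp (Subgroup.inv_mem _ (Subgroup.mul_mem _ hy hx)) v).mp hv
    simpa using this
  have h1 := hcomm _ hu
  have h2 : (y * x) * ((y * x)⁻¹ * v * (y * x)) * (y * x)⁻¹ = v := by group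
  rw [h2] at h1
  have h3 : x * y * x⁻¹ * y⁻¹ = (x * y) * (y * x)⁻¹ := by group
  rw [h3]
  calc v * ((x * y) * (y * x)⁻¹)
      = ((x * y) * ((y * x)⁻¹ * v * (y * x)) * (x * y)⁻¹) * ((x * y) * (y * x)⁻¹) := by rw [h1]
    _ = (x * y) * (y * x)⁻¹ * v := by group


/-- Iterating `b u b⁻¹ = c u`. -/
theorem pow_eq_one_of_conj_eq_mul {b c u : H} (hbc : b * c = c * b) (h : b * u * b⁻¹ = c * u) {n : ℕ}
    (hn : b ^ n = 1) : c ^ n = 1 := by
  have hiter : ∀ i : ℕ, b ^ i * u * (b ^ i)⁻¹ = c ^ i * u := by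
    intro i
    induction i with
    | zero => simp
    | succ i ih =>
      have e2 : b ^ (i + 1) * u * (b ^ (i + 1))⁻¹ = b * (b ^ i * u * (b ^ i)⁻¹) * b⁻¹ := by
        rw [pow_succ']
        group
      have hci : Commute b (c ^ i) := (show Commute b c from hbc).pow_right i
      have e3 : b * (c ^ i * u) * b⁻¹ = c ^ i * (b * u * b⁻¹) := by
        calc b * (c ^ i * u) * b⁻¹ = (b * c ^ i) * u * b⁻¹ := by group
          _ = (c ^ i * b) * u * b⁻¹ := by rw [hci.eq]
          _ = _ := by group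
      rw [e2, ih, e3, h, pow_succ]
      group
  have h2 := hiter n
  rw [hn] at h2
  simp only [one_mul, inv_one, mul_one] at h2
  have : c ^ n * u = 1 * u := by rw [one_mul]; exact h2.symm
  exact mul_right_cancel this

end Comm

section Hall

variable {X : Type u} [Group X] [Finite X]

/-- A Hall subgroup of a solvable subgroup containing a given subgroup, and dominating all others. -/
theorem exists_hall_containing (Z : Subgroup X) (hZ : Group.IsSolvable Z) (π : Set ℕ) (U : Subgroup X)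
    (hUZ : U ≤ Z) (hU : ∀ t : ℕ, t.Prime → t ∣ Nat.card U → t ∈ π) :
    ∃ T : Subgroup X, T ≤ Z ∧ U ≤ T ∧ (∀ t : ℕ, t.Prime → t ∣ Nat.card T → t ∈ π) ∧
      (∀ t : ℕ, t.Prime → t ∈ π → t ∣ Nat.card Z → t ∣ Nat.card T) ∧
      (∀ K : Subgroup X, K ≤ Z → (∀ t : ℕ, t.Prime → t ∣ Nat.card K → t ∈ π) →
        ∃ g ∈ Z, K ≤ MulAut.conj g • T) := by
  classical
  obtain ⟨T₀, hT₀Z, hT₀π, hT₀i⟩ := Cfsg.Agent.Lib.Coprime.Hall.exists_isPiHallOf π Z
  have hcop : ∀ K : Subgroup X, (∀ t : ℕ, t.Prime → t ∣ Nat.card K → t ∈ π) →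
      (Nat.card K).Coprime (T₀.relIndex Z) := fun K hK =>
    Cfsg.Agent.Lib.Coprime.Hall.coprime_of_pi hK hT₀i
  obtain ⟨l, hl, hle⟩ := Cfsg.Agent.Lib.Solvable.HallRel.exists_le_conj_of_le hZ hT₀Z hUZ
    (hcop T₀ hT₀π) (hcop U hU)
  have hconjle : ∀ (l : X), l ∈ Z → MulAut.conj l • T₀ ≤ Z := fun l hl =>
    Cfsg.Agent.Lib.Coprime.Action.conj_smul_le_of_mem_normalizer (le_normalizer hl) hT₀Z
  have hcard : Nat.card (MulAut.conj l • T₀ : Subgroup X) = Nat.card T₀ :=
    Cfsg.Agent.Lib.Solvable.Hall.card_conj_smul l T₀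
  refine ⟨MulAut.conj l • T₀, hconjle l hl, hle, ?_, ?_, ?_⟩
  · rw [hcard]
    exact hT₀π
  · intro t ht htπ hd
    rw [hcard]
    have h1 := Cfsg.Agent.Lib.Coprime.Action.card_eq_card_mul_relIndex hT₀Z
    rw [h1] at hd
    rcases (Nat.Prime.dvd_mul ht).mp hd with h | h
    · exact h
    · exact absurd h (hT₀i t ht htπ)
  · intro K hKZ hK
    obtain ⟨l', hl', hle'⟩ := Cfsg.Agent.Lib.Solvable.HallRel.exists_le_conj_of_le hZ hT₀Z hKZ
      (hcop T₀ hT₀π) (hcop K hK)
    refine ⟨l' * l⁻¹, mul_mem hl' (inv_mem hl), ?_⟩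
    rw [Cfsg.Agent.Lib.Solvable.Hall.conj_smul_conj_smul]
    simpa using hle'

end Hall

end Cfsg.Agent.Lib.FourP
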