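/-
Four primes pairwise joined: a solvable group with three primes acting on a module.
-/
import Cfsg.Agent.Lib.FourP.Tools
import Cfsg.Agent.Lib.Coprime.Abelian
import Cfsg.Agent.Lib.Coprime.Generation

set_option autoImplicit false
set_option linter.style.haveILetI false
set_option linter.unusedSectionVars false
set_option linter.unusedVariables false

namespace Cfsg.Agent.Lib.FourP

open Module Cfsg Subgroup
open Cfsg.Agent.Lib.Coprime.Action Cfsg.Agent.Lib.Coprime.Abelian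
open Cfsg.Agent.Lib.HallHigman.FixedPoints
open Cfsg.Agent.Lib.Core.Basic Cfsg.Agent.Lib.Solvable.Fitting
open scoped commutatorElement Pointwise

universe u v

section Sit

variable {H : Type u} [Group H] [Finite H] {s : ℕ} [hs : Fact s.Prime] {V : Type v}
  [AddCommGroup V] [Module (ZMod s) V]

/-- `x` has no non-zero fixed vector. -/
def Free (ρ : H →* End (ZMod s) V) (x : H) : Prop := ∀ v, ρ x v = v → v = 0

/-- The main situation. -/
structure Sit (ρ : H →* End (ZMod s) V) (σ : Finset ℕ) : Prop where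
  card : σ.card = 3
  prime : ∀ t ∈ σ, t.Prime
  pi : ∀ t, t.Prime → t ∣ Nat.card H → t ∈ σ
  s_notin : s ∉ σ
  inj : Function.Injective ρ
  pair : ∀ a ∈ σ, ∀ b ∈ σ, a ≠ b → ∃ x y : H, orderOf x = a ∧ orderOf y = b ∧ x * y = y * x
  tri : ∀ a ∈ σ, ∀ b ∈ σ, ∀ c ∈ σ, a ≠ b → a ≠ c → b ≠ c → ∀ x y z : H,
    orderOf x = a → orderOf y = b → orderOf z = c → x * y = y * x → x * z = z * x → y * z = z * y →
    False
  free : ∀ a ∈ σ, ∀ b ∈ σ, a ≠ b → ∀ x y : H, orderOf x = a → orderOf y = b → x * y = y * x →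
    ∀ v, ρ x v = v → ρ y v = v → v = 0
  two : ∀ t ∈ σ, ∀ a ∈ σ, ∀ b ∈ σ, t ≠ a → t ≠ b → a ≠ b → ∀ w x y : H,
    orderOf w = t → orderOf x = a → orderOf y = b → w * x = x * w → w * y = y * w → Free ρ w
  rank : ∀ t ∈ σ, ∀ x : H, orderOf x = t → ∃ y, NC t x y

variable {ρ : H →* End (ZMod s) V} {σ : Finset ℕ}

theorem Sit.ne_s (hS : Sit ρ σ) {c : ℕ} (hc : c ∈ σ) : c ≠ s := fun h => hS.s_notin (h ▸ hc)

theorem cast_ne_zero_of_ne {c : ℕ} (hc : c.Prime) (hcs : c ≠ s) : (c : ZMod s) ≠ 0 := by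
  intro h
  rw [ZMod.natCast_eq_zero_iff] at h
  exact hcs ((Nat.prime_dvd_prime_iff_eq hs.out hc).mp h).symm

/-- A `c`-group, `c ≠ s`, has invertible order. -/
theorem card_cast_ne_zero {c : ℕ} [hc : Fact c.Prime] (hcs : c ≠ s) {K : Subgroup H}
    (hK : IsPGroup c K) : ((Nat.card K : ℕ) : ZMod s) ≠ 0 := by
  obtain ⟨k, hk⟩ := IsPGroup.iff_card.mp hK
  rw [hk]
  push_cast
  exact pow_ne_zero _ (cast_ne_zero_of_ne hc.out hcs)

/-- Non-trivial subgroups act non-trivially. -/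
theorem Sit.eq_bot_of_act (hS : Sit ρ σ) {K : Subgroup H} (h : ∀ k ∈ K, ρ k = 1) : K = ⊥ := by
  rw [eq_bot_iff]
  intro k hk
  rw [mem_bot]
  apply hS.inj
  rw [h k hk, map_one]

/-- The Frobenius action lemma for cyclic groups. -/
theorem Sit.fl_cyc (hS : Sit ρ σ) {c : ℕ} [hc : Fact c.Prime] (hcs : c ≠ s) {K : Subgroup H}
    (hK : IsPGroup c K) (g : H) (hg : g ∈ normalizer (K : Set H))
    (hfp : ∀ z ∈ zpowers g, z ≠ 1 → ∀ k ∈ K, z * k = k * z → k = 1) (hfree : Free ρ g) : K = ⊥ := by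
  apply hS.eq_bot_of_act
  refine fl ρ K (zpowers g) ((zpowers_le).mpr hg) hfp (card_cast_ne_zero hcs hK) ?_
  intro v hv
  exact hfree v (hv g (mem_zpowers g))

/-- The Frobenius action lemma for prime order elements. -/
theorem Sit.fl_prime (hS : Sit ρ σ) {c b : ℕ} [hc : Fact c.Prime] (hb : b.Prime) (hcs : c ≠ s)
    {K : Subgroup H} (hK : IsPGroup c K) {y : H} (hy : orderOf y = b)
    (hyK : y ∈ normalizer (K : Set H)) (hfp : ∀ k ∈ K, y * k = k * y → k = 1) (hfree : Free ρ y) :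
    K = ⊥ := by
  refine hS.fl_cyc hcs hK y hyK ?_ hfree
  intro z hz hz1 k hk hzk
  exact hfp k hk (comm_of_mem_zpowers hb hy hz hz1 hzk)

/-- A non-trivial commuting element gives a commuting element of order `c`. -/
theorem Sit.tri' (hS : Sit ρ σ) {a b c : ℕ} (ha : a ∈ σ) (hb : b ∈ σ) (hc : c ∈ σ) (hab : a ≠ b)
    (hac : a ≠ c) (hbc : b ≠ c) {K : Subgroup H} (hK : IsPGroup c K) {x y : H} (hx : orderOf x = a)
    (hy : orderOf y = b) (hxy : x * y = y * x) {k : H} (hk : k ∈ K) (hxk : x * k = k * x)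
    (hyk : y * k = k * y) : k = 1 := by
  by_contra hk1
  haveI : Fact c.Prime := ⟨hS.prime c hc⟩
  obtain ⟨m, hm⟩ := exists_pow_order hK hk hk1
  refine hS.tri a ha b hb c hc hab hac hbc x y (k ^ m) hx hy hm hxy ?_ ?_
  · exact ((show Commute x k from hxk).pow_right m).eq
  · exact ((show Commute y k from hyk).pow_right m).eq

/-- Fixed vectors of elements commuting with a non-cyclic pair. -/
theorem Sit.fixNC [Finite V] (hS : Sit ρ σ) {a b : ℕ} (ha : a ∈ σ) (hb : b ∈ σ) (hab : a ≠ b)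
    {x₁ x₂ y : H} (hx : NC a x₁ x₂) (hy : orderOf y = b) (h₁ : y * x₁ = x₁ * y)
    (h₂ : y * x₂ = x₂ * y) : Free ρ y := by
  by_contra hcon
  unfold Free at hcon
  push Not at hcon
  obtain ⟨v, hv, hv0⟩ := hcon
  let S : Submodule (ZMod s) V := LinearMap.ker (ρ y - 1)
  have hmem : ∀ u, u ∈ S ↔ ρ y u = u := by
    intro u
    simp [S, LinearMap.mem_ker, sub_eq_zero]
  have hS0 : S ≠ ⊥ := by
    intro h
    have : v ∈ S := (hmem v).mpr hv
    rw [h] at this
    exact hv0 ((Submodule.mem_bot _).mp this)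
  have hcomm : ∀ e ∈ EE x₁ x₂, y * e = e * y := fun e he => comm_EE h₁ h₂ he
  obtain ⟨c, hcE, hc1, u, huS, hu0, hcu⟩ := exists_fixed_of_not_cyclic ρ (EE x₁ x₂)
    (fun p hp q hq => hx.comm_EE' hp hq) hx.not_cyclic S
    (by
      intro e he w hw
      rw [hmem] at hw ⊢
      have h1 : ρ y (ρ e w) = ρ (y * e) w := by rw [map_mul]; rfl
      rw [h1, hcomm e he, map_mul]
      change ρ e (ρ y w) = _
      rw [hw]) hS0
  have hco : orderOf c = a := hx.order (hS.prime a ha) hcE hc1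
  exact hu0 (hS.free a ha b hb hab c y hco hy (hcomm c hcE).symm u hcu ((hmem u).mp huS))

/-- Non-cyclic pairs have non-free elements. -/
theorem exists_not_free [Finite V] [Nontrivial V] {t : ℕ} {x₁ x₂ : H} (hx : NC t x₁ x₂) :
    ∃ b ∈ EE x₁ x₂, b ≠ 1 ∧ ¬ Free ρ b := by
  obtain ⟨c, hcE, hc1, u, -, hu0, hcu⟩ := exists_fixed_of_not_cyclic ρ (EE x₁ x₂)
    (fun p hp q hq => hx.comm_EE' hp hq) hx.not_cyclic ⊤ (fun _ _ _ _ => Submodule.mem_top)
    (by exact top_ne_bot)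
  exact ⟨c, hcE, hc1, fun h => hu0 (h u hcu)⟩

/-- A non-cyclic pair acting on a `c`-group. -/
theorem NC.acts {t c : ℕ} [Fact c.Prime] (ht : t.Prime) (htc : t ≠ c) {x y : H} (h : NC t x y)
    {K : Subgroup H} (hK : IsPGroup c K) (hne : K ≠ ⊥) (hN : EE x y ≤ normalizer (K : Set H)) :
    ∃ b ∈ EE x y, b ≠ 1 ∧ ∃ k ∈ K, orderOf k = c ∧ b * k = k * b := by
  haveI : IsMulCommutative (EE x y) := ⟨⟨fun u v => Subtype.ext (h.comm_EE' u.2 v.2)⟩⟩
  have hcop : (Nat.card (EE x y)).Coprime (Nat.card K) := by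
    obtain ⟨n, hn⟩ := IsPGroup.iff_card.mp hK
    rw [hn]
    apply Nat.Coprime.pow_right
    have hexp : IsPGroup t (EE x y) := by
      intro u
      refine ⟨1, Subtype.ext ?_⟩
      simpa using h.pow_eq_one u.2
    haveI : Fact t.Prime := ⟨ht⟩
    obtain ⟨m, hm⟩ := IsPGroup.iff_card.mp hexp
    rw [hm]
    exact ((Nat.coprime_primes ht (Fact.out)).mpr htc).pow_left m
  have h1 := Cfsg.Agent.Lib.Coprime.Generation.iSup_centralizer_eq h.not_cyclic hN hcop
  by_contra hcon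
  push Not at hcon
  apply hne
  rw [← h1]
  rw [eq_bot_iff]
  refine iSup₂_le ?_
  rintro b ⟨hb, hb1⟩ k ⟨hk, hkC⟩
  rw [mem_bot]
  by_contra hk1
  obtain ⟨m, hm⟩ := exists_pow_order hK hk hk1
  refine hcon b hb hb1 (k ^ m) (K.pow_mem hk m) hm ?_
  have hkb : k * b = b * k := by
    have := Subgroup.mem_centralizer_iff.mp hkC b (by simp)
    exact this.symm
  exact ((show Commute b k from hkb.symm).pow_right m).eq

theorem fixed_of_mem_zpowers {g h : H} {v : V} (hg : ρ g v = v) (hh : h ∈ zpowers g) : ρ h v = v := by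
  obtain ⟨k, rfl⟩ := (mem_powers_iff_mem_zpowers.mpr hh)
  clear hh
  induction k with
  | zero => simp
  | succ n ih =>
    change ρ (g ^ n) v = v at ih
    change ρ (g ^ (n + 1)) v = v
    rw [pow_succ, map_mul, Module.End.mul_apply, hg, ih]

/-- `[A, x] ∩ [A, y] = 1`. -/
theorem Sit.commutator_inf (hS : Sit ρ σ) {a b c : ℕ} (ha : a ∈ σ) (hb : b ∈ σ) (hc : c ∈ σ)
    (hab : a ≠ b) (hac : a ≠ c) (hbc : b ≠ c) {x y : H} (hx : orderOf x = a) (hy : orderOf y = b)
    (hxy : x * y = y * x) {A : Subgroup H} [IsMulCommutative A] (hAp : IsPGroup c A)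
    (hxA : x ∈ normalizer (A : Set H)) (hyA : y ∈ normalizer (A : Set H)) :
    ⁅A, zpowers x⁆ ⊓ ⁅A, zpowers y⁆ = ⊥ := by
  haveI : Fact c.Prime := ⟨hS.prime c hc⟩
  have hap := hS.prime a ha
  have hbp := hS.prime b hb
  have hxA' : zpowers x ≤ normalizer (A : Set H) := zpowers_le.mpr hxA
  have hyA' : zpowers y ≤ normalizer (A : Set H) := zpowers_le.mpr hyA
  have hAx : ⁅A, zpowers x⁆ ≤ A := commutator_le_of_le_normalizer hxA'
  have hcopx := card_zpowers_coprime hap hac hAp hx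
  have hcopy := card_zpowers_coprime hbp hbc hAp hy
  have hix := inf_commutator_eq_bot hxA' hcopx
  have hiy := inf_commutator_eq_bot hyA' hcopy
  have hKp : IsPGroup c ((⁅A, zpowers x⁆ ⊓ ⁅A, zpowers y⁆ : Subgroup H)) :=
    hAp.to_le (inf_le_left.trans hAx)
  have hN : ∀ g : H, g ∈ normalizer (A : Set H) → g ∈ normalizer (((zpowers x : Subgroup H)) : Set H) →
      g ∈ normalizer (((zpowers y : Subgroup H)) : Set H) →
      g ∈ normalizer ((⁅A, zpowers x⁆ ⊓ ⁅A, zpowers y⁆ : Subgroup H) : Set H) := by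
    intro g h1 h2 h3
    exact mem_normalizer_inf
      (le_normalizer_commutator_of_le (zpowers_le.mpr h1) (zpowers_le.mpr h2) (mem_zpowers g))
      (le_normalizer_commutator_of_le (zpowers_le.mpr h1) (zpowers_le.mpr h3) (mem_zpowers g))
  have hxN := hN x hxA (mem_normalizer_zpowers_of_comm rfl) (mem_normalizer_zpowers_of_comm hxy)
  have hyN := hN y hyA (mem_normalizer_zpowers_of_comm hxy.symm) (mem_normalizer_zpowers_of_comm rfl)
  refine hS.fl_cyc (hS.ne_s hc) hKp (x * y) (mul_mem hxN hyN) ?_ ?_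
  · intro z hz hz1 k hk hzk
    rcases comm_of_zpowers_mul hap hbp hab hx hy hxy hz hz1 hzk with h | h
    · have : k ∈ (A ⊓ centralizer ((zpowers x : Subgroup H) : Set H)) ⊓ ⁅A, zpowers x⁆ :=
        ⟨⟨hAx hk.1, mem_centralizer_zpowers_iff.mpr h⟩, hk.1⟩
      rw [hix] at this
      exact this
    · have : k ∈ (A ⊓ centralizer ((zpowers y : Subgroup H) : Set H)) ⊓ ⁅A, zpowers y⁆ :=
        ⟨⟨commutator_le_of_le_normalizer hyA' hk.2, mem_centralizer_zpowers_iff.mpr h⟩, hk.2⟩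
      rw [hiy] at this
      exact this
  · intro v hv
    have h1 : x ∈ zpowers (x * y) := mem_zpowers_mul hap hbp hab hx hy hxy
    have h2 : y ∈ zpowers (x * y) := by
      rw [hxy]
      exact mem_zpowers_mul hbp hap hab.symm hy hx hxy.symm
    exact hS.free a ha b hb hab x y hx hy hxy v (fixed_of_mem_zpowers hv h1)
      (fixed_of_mem_zpowers hv h2)

/-- If `C_A(y) = 1` then `x` centralizes `A`. -/
theorem Sit.split_half (hS : Sit ρ σ) {a b c : ℕ} (ha : a ∈ σ) (hb : b ∈ σ) (hc : c ∈ σ)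
    (hab : a ≠ b) (hac : a ≠ c) (hbc : b ≠ c) {x y : H} (hx : orderOf x = a) (hy : orderOf y = b)
    (hxy : x * y = y * x) {A : Subgroup H} (hAc : ∀ u ∈ A, ∀ v ∈ A, u * v = v * u)
    (hAp : IsPGroup c A) (hA : A ≠ ⊥) (hxA : x ∈ normalizer (A : Set H))
    (hyA : y ∈ normalizer (A : Set H)) (hyf : ∀ u ∈ A, y * u = u * y → u = 1) :
    (∀ u ∈ A, x * u = u * x) ∧ Free ρ x := by
  haveI : IsMulCommutative A := ⟨⟨fun u v => Subtype.ext (hAc u u.2 v v.2)⟩⟩
  haveI : Fact c.Prime := ⟨hS.prime c hc⟩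
  have hap := hS.prime a ha
  have hbp := hS.prime b hb
  have hxA' : zpowers x ≤ normalizer (A : Set H) := zpowers_le.mpr hxA
  have hyA' : zpowers y ≤ normalizer (A : Set H) := zpowers_le.mpr hyA
  have hAx : ⁅A, zpowers x⁆ ≤ A := commutator_le_of_le_normalizer hxA'
  have hcopx := card_zpowers_coprime hap hac hAp hx
  have hcopy := card_zpowers_coprime hbp hbc hAp hy
  have hdx := fixed_sup_commutator hxA' hcopx
  have hdy := fixed_sup_commutator hyA' hcopy
  have hinf := hS.commutator_inf ha hb hc hab hac hbc hx hy hxy hAp hxA hyA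
  have hCy : A ⊓ centralizer ((zpowers y : Subgroup H) : Set H) = ⊥ := by
    rw [eq_bot_iff]
    rintro u ⟨hu, huC⟩
    exact hyf u hu (mem_centralizer_zpowers_iff.mp huC)
  have hAy : ⁅A, zpowers y⁆ = A := by
    rw [hCy, bot_sup_eq] at hdy
    exact hdy
  have hAx0 : ⁅A, zpowers x⁆ = ⊥ := by
    rw [hAy, inf_eq_left.mpr hAx] at hinf
    exact hinf
  have hCx : A ⊓ centralizer ((zpowers x : Subgroup H) : Set H) = A := by
    rw [hAx0, sup_bot_eq] at hdx
    exact hdx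
  have hcent : ∀ u ∈ A, x * u = u * x := by
    intro u hu
    rw [← hCx] at hu
    exact mem_centralizer_zpowers_iff.mp hu.2
  refine ⟨hcent, ?_⟩
  obtain ⟨k, hk, hko⟩ := exists_order_of_ne_bot hAp hA
  exact hS.two a ha b hb c hc hab hac hbc x y k hx hy hko hxy (hcent k hk)

/-- **Split**. -/
theorem Sit.split (hS : Sit ρ σ) {a b c : ℕ} (ha : a ∈ σ) (hb : b ∈ σ) (hc : c ∈ σ)
    (hab : a ≠ b) (hac : a ≠ c) (hbc : b ≠ c) {x y : H} (hx : orderOf x = a) (hy : orderOf y = b)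
    (hxy : x * y = y * x) {A : Subgroup H} (hAc : ∀ u ∈ A, ∀ v ∈ A, u * v = v * u)
    (hAp : IsPGroup c A) (hA : A ≠ ⊥) (hxA : x ∈ normalizer (A : Set H))
    (hyA : y ∈ normalizer (A : Set H)) :
    ((∀ u ∈ A, x * u = u * x) ∧ Free ρ x ∧ ∀ u ∈ A, y * u = u * y → u = 1) ∨
    ((∀ u ∈ A, y * u = u * y) ∧ Free ρ y ∧ ∀ u ∈ A, x * u = u * x → u = 1) := by
  haveI : Fact c.Prime := ⟨hS.prime c hc⟩
  have hap := hS.prime a ha
  have hbp := hS.prime b hb
  by_cases hy1 : ∀ u ∈ A, y * u = u * y → u = 1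
  · obtain ⟨h1, h2⟩ := hS.split_half ha hb hc hab hac hbc hx hy hxy hAc hAp hA hxA hyA hy1
    exact Or.inl ⟨h1, h2, hy1⟩
  by_cases hx1 : ∀ u ∈ A, x * u = u * x → u = 1
  · obtain ⟨h1, h2⟩ := hS.split_half hb ha hc hab.symm hbc hac hy hx hxy.symm hAc hAp hA hyA hxA hx1
    exact Or.inr ⟨h1, h2, hx1⟩
  exfalso
  push Not at hy1 hx1
  obtain ⟨u, hu, huy, hu1⟩ := hy1
  obtain ⟨w, hw, hwx, hw1⟩ := hx1
  obtain ⟨m, hm⟩ := exists_pow_order hAp hu hu1
  have hfree : Free ρ y := hS.two b hb a ha c hc hab.symm hbc hac y x (u ^ m) hy hx hm hxy.symm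
    ((show Commute y u from huy).pow_right m).eq
  have hK : A ⊓ centralizer ((zpowers x : Subgroup H) : Set H) = ⊥ := by
    refine hS.fl_prime hbp (hS.ne_s hc) (hAp.to_le inf_le_left) hy
      (mem_normalizer_centralizer hyA hxy.symm) ?_ hfree
    rintro k ⟨hkA, hkC⟩ hyk
    exact hS.tri' ha hb hc hab hac hbc hAp hx hy hxy hkA (mem_centralizer_zpowers_iff.mp hkC) hyk
  have : w ∈ A ⊓ centralizer ((zpowers x : Subgroup H) : Set H) :=
    ⟨hw, mem_centralizer_zpowers_iff.mpr hwx⟩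
  rw [hK] at this
  exact hw1 this

/-! ### The cores -/

theorem Sit.eq_of_mem (hS : Sit ρ σ) {a b c t : ℕ} (ha : a ∈ σ) (hb : b ∈ σ) (hc : c ∈ σ) (hab : a ≠ b)
    (hac : a ≠ c) (hbc : b ≠ c) (ht : t ∈ σ) : t = a ∨ t = b ∨ t = c := by
  classical
  have hsub : ({a, b, c} : Finset ℕ) ⊆ σ := by
    intro x hx
    simp only [Finset.mem_insert, Finset.mem_singleton] at hx
    rcases hx with rfl | rfl | rfl <;> assumption
  have hcard : ({a, b, c} : Finset ℕ).card = 3 := Finset.card_eq_three.mpr ⟨a, b, c, hab, hac, hbc, rfl⟩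
  have he : ({a, b, c} : Finset ℕ) = σ := Finset.eq_of_subset_of_card_le hsub (by rw [hcard, hS.card])
  rw [← he] at ht
  simpa using ht

theorem Sit.exists_third (hS : Sit ρ σ) {a b : ℕ} : ∃ c ∈ σ, c ≠ a ∧ c ≠ b := by
  classical
  have h : 0 < (σ \ {a, b}).card := by
    have h1 := Finset.le_card_sdiff ({a, b} : Finset ℕ) σ
    have h2 : ({a, b} : Finset ℕ).card ≤ 2 := Finset.card_le_two
    rw [hS.card] at h1
    omega
  obtain ⟨c, hc⟩ := Finset.card_pos.mp h
  simp only [Finset.mem_sdiff, Finset.mem_insert, Finset.mem_singleton, not_or] at hc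
  exact ⟨c, hc.1, hc.2.1, hc.2.2⟩

theorem core_comm {a b : ℕ} (ha : a.Prime) (hb : b.Prime) (hab : a ≠ b) {u w : H}
    (hu : u ∈ pCore a H) (hw : w ∈ pCore b H) : u * w = w * u := by
  haveI : Fact a.Prime := ⟨ha⟩
  haveI : Fact b.Prime := ⟨hb⟩
  exact Subgroup.commute_of_normal_of_disjoint _ _ inferInstance inferInstance
    (IsPGroup.disjoint_of_ne a b hab _ _ pCore_isPGroup pCore_isPGroup) u w hu hw

theorem mem_pCore_of_isNilpotent' {p : ℕ} [hp : Fact p.Prime] {X : Type*} [Group X] [Finite X]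
    [hn : Group.IsNilpotent X] {x : X} (hx : ∃ k : ℕ, x ^ p ^ k = 1) : x ∈ pCore p X := by
  obtain ⟨k, hk⟩ := hx
  have hZ : IsPGroup p (Subgroup.zpowers x) := by
    rintro ⟨z, hz⟩
    refine ⟨k, Subtype.ext ?_⟩
    obtain ⟨m, rfl⟩ := Subgroup.mem_zpowers_iff.mp hz
    change (x ^ m) ^ p ^ k = 1
    rw [← zpow_natCast, ← zpow_mul, mul_comm, zpow_mul, zpow_natCast, hk, one_zpow]
  obtain ⟨P, hP⟩ := hZ.exists_le_sylow
  have htfae := (Group.isNilpotent_of_finite_tfae (G := X)).out 0 3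
  have hPn : (P : Subgroup X).Normal := htfae.mp hn p hp P
  exact le_pCore hPn P.isPGroup' (hP (Subgroup.mem_zpowers x))

theorem mem_pCore_of_mem_fitting' {p : ℕ} [hp : Fact p.Prime] {X : Type*} [Group X] [Finite X] {x : X}
    (hF : x ∈ fittingSubgroup X) (hx : ∃ k : ℕ, x ^ p ^ k = 1) : x ∈ pCore p X := by
  haveI : Group.IsNilpotent (fittingSubgroup X) := fittingSubgroup_isNilpotent
  have h1 : (⟨x, hF⟩ : fittingSubgroup X) ∈ pCore p (fittingSubgroup X) := by
    apply mem_pCore_of_isNilpotent'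
    obtain ⟨k, hk⟩ := hx
    exact ⟨k, Subtype.ext hk⟩
  have h2 := map_pCore_le_of_isSubnormal (p := p)
    (Subgroup.Normal.isSubnormal (fittingSubgroup_normal (G := X)))
  exact h2 ⟨_, h1, rfl⟩

/-- An element centralizing all the cores lies in the Fitting subgroup. -/
theorem mem_fitting_of_centralizes [Group.IsSolvable H] {x : H}
    (h : ∀ t : ℕ, t.Prime → ∀ u ∈ pCore t H, x * u = u * x) : x ∈ fittingSubgroup H := by
  apply centralizer_fittingSubgroup_le
  rw [mem_centralizer_iff]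
  intro y hy
  rw [fittingSubgroup_eq_iSup_pCore] at hy
  have hle : (⨆ p : Nat.Primes, pCore (p : ℕ) H) ≤ centralizer {x} := by
    refine iSup_le fun p u hu => ?_
    rw [mem_centralizer_iff]
    intro g hg
    rw [Set.mem_singleton_iff.mp hg]
    exact h p p.2 u hu
  have := hle hy
  rw [mem_centralizer_iff] at this
  exact (this x rfl).symm

theorem Sit.core_eq_bot (hS : Sit ρ σ) {t : ℕ} (ht : t.Prime) (hn : t ∉ σ) : pCore t H = ⊥ := by
  haveI : Fact t.Prime := ⟨ht⟩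
  exact pCore_eq_bot_of_not_dvd (fun h => hn (hS.pi t ht h))

/-- An element of order `a` centralizing all the cores gives `O_a ≠ 1`. -/
theorem Sit.core_ne_bot [Group.IsSolvable H] (hS : Sit ρ σ) {a : ℕ} (ha : a ∈ σ) {x : H}
    (hx : orderOf x = a) (h : ∀ t ∈ σ, ∀ u ∈ pCore t H, x * u = u * x) : pCore a H ≠ ⊥ := by
  haveI : Fact a.Prime := ⟨hS.prime a ha⟩
  have hF : x ∈ fittingSubgroup H := by
    apply mem_fitting_of_centralizes
    intro t ht u hu
    by_cases htσ : t ∈ σ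
    · exact h t htσ u hu
    · rw [hS.core_eq_bot ht htσ] at hu
      rw [(mem_bot).mp hu]
      simp
  have hxa : x ∈ pCore a H := mem_pCore_of_mem_fitting' hF ⟨1, by rw [pow_one, ← hx, pow_orderOf_eq_one]⟩
  intro hbot
  rw [hbot] at hxa
  rw [(mem_bot).mp hxa, orderOf_one] at hx
  exact (hS.prime a ha).one_lt.ne hx

/-- Free elements centralize `c`-groups in the non-exceptional case. -/
theorem Sit.free_comm [Finite V] (hS : Sit ρ σ) {a c : ℕ} (ha : a ∈ σ) (hc : c ∈ σ) (hac : a ≠ c) {x : H}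
    (hx : orderOf x = a) (hfree : Free ρ x) {K : Subgroup H} (hK : IsPGroup c K)
    (hN : x ∈ normalizer (K : Set H)) (hexc : ∀ m : ℕ, 1 ≤ m → a ≠ c ^ m + 1) :
    ∀ g ∈ K, x * g = g * x := by
  haveI : Fact c.Prime := ⟨hS.prime c hc⟩
  haveI : Fact a.Prime := ⟨hS.prime a ha⟩
  haveI : FiniteDimensional (ZMod s) V := Module.Finite.of_finite
  intro g hg
  have hq : ∀ q : ℕ, q.Prime → q ∣ Nat.card K → q = c := by
    intro q hq hd
    obtain ⟨n, hn⟩ := IsPGroup.iff_card.mp hK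
    rw [hn] at hd
    exact (Nat.prime_dvd_prime_iff_eq hq (Fact.out)).mp (hq.dvd_of_dvd_pow hd)
  have h1 := commute_of_free (F := ZMod s) (r := a) (cast_ne_zero_of_ne (hS.prime a ha) (hS.ne_s ha)) ρ x hx K hN
    (card_coprime_of_isPGroup hK ((Nat.coprime_primes (hS.prime a ha) (Fact.out)).mpr hac))
    (fun q hq' hd => by
      rw [hq q hq' hd]
      exact cast_ne_zero_of_ne (hS.prime c hc) (hS.ne_s hc)) hfree
    (fun q m hq' hd hm => by
      rw [hq q hq' hd]
      exact hexc m hm) g hg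
  have h2 := hS.inj h1
  calc x * g = (x * g * x⁻¹) * x := by group
    _ = g * x := by rw [h2]

theorem exc_of_odd {a c : ℕ} (ha : a.Prime) (hc : c.Prime) (hc2 : c ≠ 2) :
    ∀ m : ℕ, 1 ≤ m → a ≠ c ^ m + 1 := fun m hm h =>
  hc2 (Cfsg.Agent.Lib.HallHigman.FixedPoints.eq_two_of_eq_pow_add_one hc ha hm h)

/-- The centre of a core. -/
theorem exists_center_core {c : ℕ} [hc : Fact c.Prime] (hne : pCore c H ≠ ⊥) :
    ∃ A : Subgroup H, A.Normal ∧ A ≠ ⊥ ∧ A ≤ pCore c H ∧ ∀ u ∈ A, ∀ v ∈ A, u * v = v * u := by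
  refine ⟨pCore c H ⊓ centralizer (pCore c H : Set H), ?_, ?_, inf_le_left, ?_⟩
  · haveI : (centralizer (pCore c H : Set H)).Normal := inferInstance
    infer_instance
  · haveI : Nontrivial (pCore c H) := (Subgroup.bot_or_nontrivial _).resolve_left hne
    have hp : IsPGroup c (pCore c H) := pCore_isPGroup
    haveI := hp.center_nontrivial
    obtain ⟨z, hz⟩ := exists_ne (1 : center (pCore c H))
    intro h
    apply hz
    have hmem : ((z : pCore c H) : H) ∈ pCore c H ⊓ centralizer (pCore c H : Set H) := by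
      refine ⟨(z : pCore c H).2, mem_centralizer_iff.mpr ?_⟩
      intro g hg
      have := (Subgroup.mem_center_iff.mp z.2) ⟨g, hg⟩
      exact congrArg Subtype.val this
    rw [h, mem_bot] at hmem
    exact Subtype.ext (Subtype.ext hmem)
  · rintro u ⟨hu, -⟩ v ⟨hv, hvC⟩
    exact mem_centralizer_iff.mp hvC u hu

/-- **Split** on an odd core. -/
theorem Sit.split_core [Finite V] (hS : Sit ρ σ) {a b c : ℕ} (ha : a ∈ σ) (hb : b ∈ σ) (hc : c ∈ σ)
    (hab : a ≠ b) (hac : a ≠ c) (hbc : b ≠ c) (hc2 : c ≠ 2) {x y : H} (hx : orderOf x = a)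
    (hy : orderOf y = b) (hxy : x * y = y * x) (hne : pCore c H ≠ ⊥) :
    ((∀ u ∈ pCore c H, x * u = u * x) ∧ Free ρ x ∧ ∀ u ∈ pCore c H, y * u = u * y → u = 1) ∨
    ((∀ u ∈ pCore c H, y * u = u * y) ∧ Free ρ y ∧ ∀ u ∈ pCore c H, x * u = u * x → u = 1) := by
  haveI : Fact c.Prime := ⟨hS.prime c hc⟩
  obtain ⟨A, hAn, hA, hAO, hAc⟩ := exists_center_core hne
  have hp : IsPGroup c (pCore c H) := pCore_isPGroup
  have hnO : ∀ g : H, g ∈ normalizer ((pCore c H : Subgroup H) : Set H) :=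
    mem_normalizer_of_normal inferInstance
  rcases hS.split ha hb hc hab hac hbc hx hy hxy hAc (hp.to_le hAO) hA
    (mem_normalizer_of_normal hAn x) (mem_normalizer_of_normal hAn y) with ⟨h1, h2, h3⟩ | ⟨h1, h2, h3⟩
  · left
    have hcent := hS.free_comm ha hc hac hx h2 hp (hnO x)
      (exc_of_odd (hS.prime a ha) (hS.prime c hc) hc2)
    exact ⟨hcent, h2, fun u hu huy => hS.tri' ha hb hc hab hac hbc hp hx hy hxy hu (hcent u hu) huy⟩
  · right
    have hcent := hS.free_comm hb hc hbc hy h2 hp (hnO y)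
      (exc_of_odd (hS.prime b hb) (hS.prime c hc) hc2)
    exact ⟨hcent, h2, fun u hu hux => hS.tri' ha hb hc hab hac hbc hp hx hy hxy hu hux (hcent u hu)⟩

/-! ### Case A: one odd core -/

theorem Sit.case_A [Finite V] [Group.IsSolvable H] (hS : Sit ρ σ) {a b c : ℕ} (ha : a ∈ σ) (hb : b ∈ σ)
    (hc : c ∈ σ) (hab : a ≠ b) (hac : a ≠ c) (hbc : b ≠ c) (hc2 : c ≠ 2) (hne : pCore c H ≠ ⊥)
    (hOa : pCore a H = ⊥) (hOb : pCore b H = ⊥) : False := by
  obtain ⟨x, y, hx, hy, hxy⟩ := hS.pair a ha b hb hab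
  have key : ∀ {e : ℕ} {w : H}, e ∈ σ → orderOf w = e → pCore e H = ⊥ →
      (∀ u ∈ pCore c H, w * u = u * w) → False := by
    intro e w he hw hO hcent
    refine hS.core_ne_bot he hw ?_ hO
    intro t ht u hu
    rcases hS.eq_of_mem ha hb hc hab hac hbc ht with rfl | rfl | rfl
    · rw [hOa, mem_bot] at hu
      rw [hu]
      simp
    · rw [hOb, mem_bot] at hu
      rw [hu]
      simp
    · exact hcent u hu
  rcases hS.split_core ha hb hc hab hac hbc hc2 hx hy hxy hne with ⟨h1, -⟩ | ⟨h1, -⟩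
  · exact key ha hx hOa h1
  · exact key hb hy hOb h1

/-! ### Case C: the core of `2` and an odd core -/

theorem Sit.case_C [Finite V] [Nontrivial V] (hS : Sit ρ σ) {p r : ℕ} (h2 : 2 ∈ σ) (hp : p ∈ σ) (hr : r ∈ σ)
    (hp2 : p ≠ 2) (hr2 : r ≠ 2) (hpr : p ≠ r) (hO2 : pCore 2 H ≠ ⊥) (hOp : pCore p H ≠ ⊥) : False := by
  haveI : Fact (Nat.Prime 2) := ⟨Nat.prime_two⟩
  haveI : Fact p.Prime := ⟨hS.prime p hp⟩
  have hrp := hS.prime r hr
  obtain ⟨x₀, -, hx₀, -, -⟩ := hS.pair r hr p hp hpr.symm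
  obtain ⟨x₁, hNC⟩ := hS.rank r hr x₀ hx₀
  have hn : ∀ (c : ℕ) (g : H), g ∈ normalizer ((pCore c H : Subgroup H) : Set H) := fun c g =>
    mem_normalizer_of_normal inferInstance g
  obtain ⟨b, hbE, hb1, v, hv, hvo, hbv⟩ := hNC.acts hrp hr2 pCore_isPGroup hO2
    (fun g _ => hn 2 g)
  have hbo := hNC.order hrp hbE hb1
  obtain ⟨u, hu, huo⟩ := exists_order_of_ne_bot (pCore_isPGroup (p := p)) hOp
  have hfree : Free ρ v := hS.two 2 h2 r hr p hp hr2.symm hp2.symm hpr.symm v b u hvo hbo huo hbv.symm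
    (core_comm Nat.prime_two (hS.prime p hp) hp2.symm hv hu)
  -- `v` acts as `-1`
  have hneg : ρ v = -1 := by
    ext w
    have h1 : ρ v (w + ρ v w) = w + ρ v w := by
      rw [map_add, ← Module.End.mul_apply, ← map_mul, ← pow_two, ← hvo, pow_orderOf_eq_one, map_one]
      simp [add_comm]
    have h2 := hfree _ h1
    simpa [eq_neg_iff_add_eq_zero, add_comm] using h2
  have hcentral : ∀ g : H, g * v = v * g := by
    intro g
    have h1 : ρ (g * v * g⁻¹) = ρ v := by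
      rw [map_mul, map_mul, hneg]
      have : ρ g * ρ g⁻¹ = 1 := by rw [← map_mul]; simp
      simp [this]
    have h3 := hS.inj h1
    calc g * v = (g * v * g⁻¹) * g := by group
      _ = v * g := by rw [h3]
  obtain ⟨b', hbE', hb1', u', hu', huo', hbu⟩ := hNC.acts hrp hpr.symm pCore_isPGroup hOp
    (fun g _ => hn p g)
  have hbo' := hNC.order hrp hbE' hb1'
  exact hS.tri 2 h2 r hr p hp hr2.symm hp2.symm hpr.symm v b' u' hvo hbo' huo' (hcentral b').symm
    (hcentral u').symm hbu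

/-! ### Subgroups as groups -/

theorem mem_normalizer_map {T : Subgroup H} {K : Subgroup T} {y : T}
    (hy : y ∈ normalizer (K : Set T)) :
    (y : H) ∈ normalizer ((K.map T.subtype : Subgroup H) : Set H) := by
  rw [mem_normalizer_iff]
  intro h
  constructor
  · rintro ⟨k, hk, rfl⟩
    exact ⟨y * k * y⁻¹, (mem_normalizer_iff.mp hy k).mp hk, by simp⟩
  · rintro ⟨k, hk, he⟩
    have hk' : y⁻¹ * k * y ∈ K := by
      have h1 := (mem_normalizer_iff.mp (inv_mem hy) k).mp hk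
      simpa using h1
    refine ⟨y⁻¹ * k * y, hk', ?_⟩
    simp only [Subgroup.subtype_apply, Subgroup.coe_mul, Subgroup.coe_inv] at he ⊢
    rw [he]
    group

theorem NC.coe {T : Subgroup H} {t : ℕ} {a b : T} (h : NC t a b) : NC t (a : H) (b : H) := by
  refine ⟨?_, ?_, congrArg Subtype.val h.comm, ?_⟩
  · exact (Subgroup.orderOf_coe a).trans h.ox
  · exact (Subgroup.orderOf_coe b).trans h.oy
  · intro hm
    apply h.nm
    obtain ⟨k, hk⟩ := mem_zpowers_iff.mp hm
    refine mem_zpowers_iff.mpr ⟨k, Subtype.ext ?_⟩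
    simpa using hk

/-- Conjugating the second element of a pair by an element commuting with the first. -/
theorem NC.conj {t : ℕ} {y z : H} (h : NC t y z) {g : H} (hg : g * y = y * g) :
    NC t y (g * z * g⁻¹) := by
  have hc : g * y * g⁻¹ = y := by rw [hg]; group
  refine ⟨h.ox, ?_, ?_, ?_⟩
  · rw [← h.oy]
    exact orderOf_injective (MulAut.conj g).toMonoidHom (MulAut.conj g).injective z
  · have h1 : y * (g * z * g⁻¹) = g * (y * z) * g⁻¹ := by
      calc y * (g * z * g⁻¹) = (y * g) * z * g⁻¹ := by group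
        _ = (g * y) * z * g⁻¹ := by rw [hg]
        _ = _ := by group
    have h2 : (g * z * g⁻¹) * y = g * (z * y) * g⁻¹ := by
      calc (g * z * g⁻¹) * y = g * z * (g⁻¹ * y) := by group
        _ = g * z * (y * g⁻¹) := by
          have : Commute g⁻¹ y := (show Commute g y from hg).inv_left
          rw [this.eq]
        _ = _ := by group
    rw [h1, h2, h.comm]
  · intro hm
    apply h.nm
    obtain ⟨k, hk⟩ := mem_zpowers_iff.mp hm
    refine mem_zpowers_iff.mpr ⟨k, ?_⟩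
    have hgk : Commute g (y ^ k) := (show Commute g y from hg).zpow_right k
    calc y ^ k = g⁻¹ * (g * y ^ k) * g⁻¹⁻¹ * g⁻¹ := by group
      _ = g⁻¹ * (y ^ k * g) * g * g⁻¹ := by rw [hgk.eq]; group
      _ = g⁻¹ * (y ^ k) * g := by group
      _ = g⁻¹ * (g * z * g⁻¹) * g := by rw [hk]
      _ = z := by group

theorem isPGroup_zpowers {t : ℕ} (ht : t.Prime) {x : H} (hx : orderOf x = t) : IsPGroup t (zpowers x) := by
  haveI : Fact t.Prime := ⟨ht⟩
  rw [IsPGroup.iff_card, Nat.card_zpowers, hx]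
  exact ⟨1, (pow_one t).symm⟩

/-! ### Case B: only the core of `2` -/

theorem Sit.case_B_aux [Finite V] [Nontrivial V] [hsol : Group.IsSolvable H] (hS : Sit ρ σ) {p r : ℕ}
    (h2 : 2 ∈ σ) (hp : p ∈ σ) (hr : r ∈ σ) (hp2 : p ≠ 2) (hr2 : r ≠ 2) (hpr : p ≠ r)
    (hOp : pCore p H = ⊥) (hOr : pCore r H = ⊥) {x y : H} (hx : orderOf x = p) (hy : orderOf y = r)
    (hxy : x * y = y * x) {A : Subgroup H} (hAn : A.Normal) (hA : A ≠ ⊥) (hAO : A ≤ pCore 2 H)
    (h1 : ∀ u ∈ A, x * u = u * x) (hfx : Free ρ x) (h3 : ∀ u ∈ A, y * u = u * y → u = 1) : False := by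
  classical
  haveI : Fact (Nat.Prime 2) := ⟨Nat.prime_two⟩
  have hpp := hS.prime p hp
  have hrp := hS.prime r hr
  haveI : Fact p.Prime := ⟨hpp⟩
  haveI : Fact r.Prime := ⟨hrp⟩
  have hAp : IsPGroup 2 A := (pCore_isPGroup (p := 2) (G := H)).to_le hAO
  -- `p` is a Fermat prime
  have hexc : ∃ m : ℕ, p = 2 ^ m + 1 := by
    by_contra hcon
    push Not at hcon
    have hcent := hS.free_comm hp h2 hp2 hx hfx (K := pCore 2 H) pCore_isPGroup
      (mem_normalizer_of_normal inferInstance x) (fun m _ => hcon m)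
    refine hS.core_ne_bot hp hx ?_ hOp
    intro t ht u hu
    rcases hS.eq_of_mem h2 hp hr hp2.symm hr2.symm hpr ht with rfl | rfl | rfl
    · exact hcent u hu
    · rw [hOp, mem_bot] at hu
      rw [hu]
      simp
    · rw [hOr, mem_bot] at hu
      rw [hu]
      simp
  -- `y` is not free
  have hnf : ¬ Free ρ y := fun hf =>
    hA (hS.fl_prime hrp (hS.ne_s h2) hAp hy (mem_normalizer_of_normal hAn y) h3 hf)
  obtain ⟨t, hNC⟩ := hS.rank r hr y hy
  -- the Hall subgroup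
  let Z : Subgroup H := centralizer {y}
  have hmemZ : ∀ g : H, g ∈ Z ↔ g * y = y * g := by
    intro g
    simp only [Z, mem_centralizer_iff, Set.mem_singleton_iff, forall_eq]
    exact eq_comm
  have hZs : Group.IsSolvable Z := inferInstance
  let U : Subgroup H := zpowers (x * y)
  have hxU : x ∈ U := mem_zpowers_mul hpp hrp hpr hx hy hxy
  have hyU : y ∈ U := by
    change y ∈ zpowers (x * y)
    rw [hxy]
    exact mem_zpowers_mul hrp hpp hpr.symm hy hx hxy.symm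
  have hUZ : U ≤ Z := by
    refine zpowers_le.mpr ?_
    rw [hmemZ]
    calc x * y * y = (x * y) * y := rfl
      _ = (y * x) * y := by rw [hxy]
      _ = y * (x * y) := by group
  have hUπ : ∀ t : ℕ, t.Prime → t ∣ Nat.card U → t ∈ ({p, r} : Set ℕ) := by
    intro q hq hd
    have hcop : Nat.Coprime (orderOf x) (orderOf y) := by
      rw [hx, hy]
      exact (Nat.coprime_primes hpp hrp).mpr hpr
    have hord : orderOf (x * y) = p * r := by
      rw [(show Commute x y from hxy).orderOf_mul_eq_mul_orderOf_of_coprime hcop, hx, hy]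
    rw [Nat.card_zpowers, hord] at hd
    rcases (Nat.Prime.dvd_mul hq).mp hd with h | h
    · exact Or.inl ((Nat.prime_dvd_prime_iff_eq hq hpp).mp h)
    · exact Or.inr ((Nat.prime_dvd_prime_iff_eq hq hrp).mp h)
  obtain ⟨T, hTZ, hUT, hTπ, -, hTdom⟩ := exists_hall_containing Z hZs {p, r} U hUZ hUπ
  -- conjugate `t` into `T`
  have htZ : t ∈ Z := (hmemZ t).mpr hNC.comm.symm
  obtain ⟨g, hgZ, hgt⟩ := hTdom (zpowers t) (zpowers_le.mpr htZ) (by
    intro q hq hd
    rw [Nat.card_zpowers, hNC.oy] at hd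
    exact Or.inr ((Nat.prime_dvd_prime_iff_eq hq hrp).mp hd))
  have ht' : g⁻¹ * t * g ∈ T := by
    have := hgt (mem_zpowers t)
    rw [Cfsg.Agent.Lib.Solvable.Hall.mem_conj_smul_iff] at this
    exact this
  have hNC' : NC r y (g⁻¹ * t * g) := by
    have h4 := hNC.conj (g := g⁻¹) (by
      have : Commute g y := (hmemZ g).mp hgZ
      exact this.inv_left.eq)
    simpa using h4
  set t' := g⁻¹ * t * g with ht'def
  -- `t'` does not commute with `x`
  have hne : x * t' ≠ t' * x := by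
    intro hcomm
    obtain ⟨b, hbE, hb1, k, hk, hko, hbk⟩ := hNC'.acts hrp hr2 hAp hA
      (fun g _ => mem_normalizer_of_normal hAn g)
    have hbo := hNC'.order hrp hbE hb1
    have hxb : x * b = b * x := comm_EE hxy hcomm hbE
    exact hS.tri p hp r hr 2 h2 hpr hp2 hr2 x b k hx hbo hko hxb (h1 k hk) hbk
  -- no non-cyclic `p`-pairs in `T`
  have hTy : ∀ g ∈ T, y * g = g * y := fun g hg => ((hmemZ g).mp (hTZ hg)).symm
  have hnc : ∀ c₁ c₂ : T, ¬ NC p c₁ c₂ := by
    intro c₁ c₂ hc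
    exact hnf (hS.fixNC hp hr hpr hc.coe hy (hTy _ c₁.2) (hTy _ c₂.2))
  have hπT : ∀ q : ℕ, q.Prime → q ∣ Nat.card T → q = r ∨ q = p := by
    intro q hq hd
    rcases hTπ q hq hd with h | h
    · exact Or.inr h
    · exact Or.inl h
  let x' : T := ⟨x, hUT hxU⟩
  let t'' : T := ⟨t', ht'⟩
  refine two_prime_lemma (x := x') (t := t'') hpr hπT ?_ ?_ ?_ hnc ?_ ?_
  · exact (Subgroup.orderOf_coe _).symm.trans hx
  · exact (Subgroup.orderOf_coe _).symm.trans hNC'.oy
  · intro h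
    exact hne (congrArg Subtype.val h)
  · intro K hK hxK g hg
    have hKm : IsPGroup r (K.map T.subtype) := hK.map T.subtype
    have hNm := mem_normalizer_map hxK
    have h5 := hS.free_comm hp hr hpr hx hfx hKm hNm (exc_of_odd hpp hrp hr2) (g : H)
      ⟨g, hg, rfl⟩
    exact Subtype.ext h5
  · obtain ⟨m, hm⟩ := hexc
    intro hd
    have h6 : r ∣ 2 ^ m := by
      have : p - 1 = 2 ^ m := by
        rw [hm]
        simp
      rwa [this] at hd
    exact hr2 ((Nat.prime_dvd_prime_iff_eq hrp Nat.prime_two).mp (hrp.dvd_of_dvd_pow h6))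

theorem Sit.case_B [Finite V] [Nontrivial V] [hsol : Group.IsSolvable H] (hS : Sit ρ σ) {p r : ℕ}
    (h2 : 2 ∈ σ) (hp : p ∈ σ) (hr : r ∈ σ) (hp2 : p ≠ 2) (hr2 : r ≠ 2) (hpr : p ≠ r)
    (hO2 : pCore 2 H ≠ ⊥) (hOp : pCore p H = ⊥) (hOr : pCore r H = ⊥) : False := by
  haveI : Fact (Nat.Prime 2) := ⟨Nat.prime_two⟩
  obtain ⟨A, hAn, hA, hAO, hAc⟩ := exists_center_core hO2
  have hAp : IsPGroup 2 A := (pCore_isPGroup (p := 2) (G := H)).to_le hAO
  obtain ⟨x, y, hx, hy, hxy⟩ := hS.pair p hp r hr hpr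
  rcases hS.split hp hr h2 hpr hp2 hr2 hx hy hxy hAc hAp hA (mem_normalizer_of_normal hAn x)
    (mem_normalizer_of_normal hAn y) with ⟨h1, h3, h4⟩ | ⟨h1, h3, h4⟩
  · exact hS.case_B_aux h2 hp hr hp2 hr2 hpr hOp hOr hx hy hxy hAn hA hAO h1 h3 h4
  · exact hS.case_B_aux h2 hr hp hr2 hp2 hpr.symm hOr hOp hy hx hxy.symm hAn hA hAO h1 h3 h4

end Sit

end Cfsg.Agent.Lib.FourP
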