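/-
Four primes pairwise joined: two odd cores.
-/
import Cfsg.Agent.Lib.FourP.Sit
import Cfsg.Agent.Lib.LocalEven.Isolated

set_option autoImplicit false
set_option linter.style.haveILetI false
set_option linter.unusedSectionVars false
set_option linter.unusedVariables false

namespace Cfsg.Agent.Lib.FourP

open Module Cfsg Subgroup
open Cfsg.Agent.Lib.Coprime.Action Cfsg.Agent.Lib.Coprime.Abelian
open Cfsg.Agent.Lib.HallHigman.FixedPoints
open Cfsg.Agent.Lib.Core.Basic Cfsg.Agent.Lib.Solvable.Fitting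
open scoped commutatorElement Pointwise

universe u v

section D

variable {H : Type u} [Group H] [Finite H] {s : ℕ} [hs : Fact s.Prime] {V : Type v}
  [AddCommGroup V] [Module (ZMod s) V] {ρ : H →* End (ZMod s) V} {σ : Finset ℕ}

/-- The basic splitting statement. -/
theorem Sit.beta [Finite V] [Group.IsSolvable H] (hS : Sit ρ σ) {p q r : ℕ} (hp : p ∈ σ) (hq : q ∈ σ)
    (hr : r ∈ σ) (hpq : p ≠ q) (hpr : p ≠ r) (hqr : q ≠ r) (hp2 : p ≠ 2) (hq2 : q ≠ 2)
    (hOq : pCore q H ≠ ⊥) (hOr : pCore r H = ⊥) {x y : H} (hx : orderOf x = p) (hy : orderOf y = r)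
    (hxy : x * y = y * x) :
    (∀ u ∈ pCore q H, x * u = u * x) ∧ Free ρ x ∧ ∀ u ∈ pCore q H, y * u = u * y → u = 1 := by
  rcases hS.split_core hp hr hq hpr hpq hqr.symm hq2 hx hy hxy hOq with h | ⟨h1, h2, h3⟩
  · exact h
  · exfalso
    have hcentp := hS.free_comm hr hp hpr.symm hy h2 (K := pCore p H) pCore_isPGroup
      (mem_normalizer_of_normal inferInstance y)
      (exc_of_odd (hS.prime r hr) (hS.prime p hp) hp2)
    refine hS.core_ne_bot hr hy ?_ hOr
    intro t ht u hu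
    rcases hS.eq_of_mem hp hq hr hpq hpr hqr ht with rfl | rfl | rfl
    · exact hcentp u hu
    · exact h1 u hu
    · rw [hOr, mem_bot] at hu
      rw [hu]
      simp

/-- Decomposition of elements centralizing the cores. -/
theorem Sit.decomp [Group.IsSolvable H] (hS : Sit ρ σ) {p q r : ℕ} (hp : p ∈ σ) (hq : q ∈ σ)
    (hr : r ∈ σ) (hpq : p ≠ q) (hpr : p ≠ r) (hqr : q ≠ r) (hOr : pCore r H = ⊥) {z : H}
    (h1 : ∀ u ∈ pCore p H, z * u = u * z) (h2 : ∀ u ∈ pCore q H, z * u = u * z) :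
    ∃ u ∈ pCore p H, ∃ w ∈ pCore q H, z = u * w := by
  have hF : z ∈ fittingSubgroup H := by
    apply mem_fitting_of_centralizes
    intro t ht u hu
    by_cases htσ : t ∈ σ
    · rcases hS.eq_of_mem hp hq hr hpq hpr hqr htσ with rfl | rfl | rfl
      · exact h1 u hu
      · exact h2 u hu
      · rw [hOr, mem_bot] at hu
        rw [hu]
        simp
    · rw [hS.core_eq_bot ht htσ, mem_bot] at hu
      rw [hu]
      simp
  have hle : fittingSubgroup H ≤ pCore p H ⊔ pCore q H := by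
    rw [fittingSubgroup_eq_iSup_pCore]
    refine iSup_le fun t => ?_
    by_cases htσ : (t : ℕ) ∈ σ
    · rcases hS.eq_of_mem hp hq hr hpq hpr hqr htσ with h | h | h
      · rw [h]
        exact le_sup_left
      · rw [h]
        exact le_sup_right
      · rw [h, hOr]
        exact bot_le
    · rw [hS.core_eq_bot t.2 htσ]
      exact bot_le
  have := hle hF
  rw [mem_sup_of_normal_right] at this
  obtain ⟨u, hu, w, hw, e⟩ := this
  exact ⟨u, hu, w, hw, e.symm⟩

/-- The cyclic case: the key claim. -/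
theorem Sit.D1_claim [Finite V] [Group.IsSolvable H] (hS : Sit ρ σ) {p q r : ℕ} (hp : p ∈ σ) (hq : q ∈ σ)
    (hr : r ∈ σ) (hpq : p ≠ q) (hpr : p ≠ r) (hqr : q ≠ r) (hp2 : p ≠ 2) (hq2 : q ≠ 2)
    (hOp : pCore p H ≠ ⊥) (hOq : pCore q H ≠ ⊥) (hOr : pCore r H = ⊥)
    (hcp : IsCyclic (pCore p H)) (hcq : IsCyclic (pCore q H)) {c : H} (hc : orderOf c = p) :
    ∀ w ∈ pCore q H, c * w = w * c := by
  have hpp := hS.prime p hp
  have hqp := hS.prime q hq
  have hrp := hS.prime r hr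
  haveI : Fact p.Prime := ⟨hpp⟩
  haveI : Fact q.Prime := ⟨hqp⟩
  haveI : Fact r.Prime := ⟨hrp⟩
  have hn : ∀ (e : ℕ) (g : H), g ∈ normalizer ((pCore e H : Subgroup H) : Set H) := fun e g =>
    mem_normalizer_of_normal inferInstance g
  obtain ⟨x₀, -, hx₀, -, -⟩ := hS.pair r hr p hp hpr.symm
  obtain ⟨x₁, hNC⟩ := hS.rank r hr x₀ hx₀
  obtain ⟨b, hbE, hb1, v, hv, hvo, hbv⟩ := hNC.acts hrp hqr.symm pCore_isPGroup hOq
    (fun g _ => hn q g)
  have hbo := hNC.order hrp hbE hb1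
  have hbr : b ^ r = 1 := by rw [← hbo, pow_orderOf_eq_one]
  -- `b` is fixed point free on `O_p`
  obtain ⟨-, -, hfp⟩ := hS.beta hq hp hr hpq.symm hqr hpr hq2 hp2 hOp hOr hvo hbo hbv.symm
  -- `b` centralizes `O_q`
  have hv1 : v ≠ 1 := by
    rintro rfl
    rw [orderOf_one] at hvo
    exact hqp.one_lt.ne hvo
  have hbq : ∀ w ∈ pCore q H, b * w = w * b := by
    intro w hw
    have h1 := Cfsg.Agent.Lib.LocalEven.Isolated.centralizes_of_cyclic (p := q) pCore_isPGroup hcq
      (hn q b) (by rw [hbo]; exact (Nat.coprime_primes hrp hqp).mpr hqr.symm) hv hv1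
      (by rw [hbv]; group) hw
    calc b * w = (b * w * b⁻¹) * b := by group
      _ = w * b := by rw [h1]
  -- the commutator
  have hdec : ∃ u ∈ pCore p H, ∃ w ∈ pCore q H, c * b * c⁻¹ * b⁻¹ = u * w := by
    apply hS.decomp hp hq hr hpq hpr hqr hOr
    · intro u hu
      exact (mem_centralizer_iff.mp
        (comm_mem_centralizer_of_isCyclic hcp (hn p c) (hn p b)) u hu).symm
    · intro u hu
      exact (mem_centralizer_iff.mp
        (comm_mem_centralizer_of_isCyclic hcq (hn q c) (hn q b)) u hu).symm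
  obtain ⟨u, hu, w, hw, hdecu⟩ := hdec
  have hinf : pCore p H ⊓ pCore q H = ⊥ :=
    disjoint_iff.mp (IsPGroup.disjoint_of_ne p q hpq _ _ pCore_isPGroup pCore_isPGroup)
  have e1 : c * b * c⁻¹ = u * w * b := by
    rw [← hdecu]
    group
  have hw1 : w = 1 := by
    refine eq_one_of_mul_pow (q := q) (n := r) inferInstance hinf pCore_isPGroup
      ((Nat.coprime_primes hrp hqp).mpr hqr.symm) hu hw
      (core_comm hqp hpp hpq.symm hw hu) (hbq w hw).symm hbr ?_
    rw [← e1, conj_pow, hbr]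
    group
  subst hw1
  rw [mul_one] at e1
  obtain ⟨z, hz, hzu⟩ := exists_comm_eq_of_fpf (hn p b) hfp hu
  -- `e = z c` commutes with `b`
  have heb : (z * c) * b = b * (z * c) := by
    have h1 : (z * c) * b * (z * c)⁻¹ = z * (c * b * c⁻¹) * z⁻¹ := by group
    have h2 : (z * c) * b * (z * c)⁻¹ = b := by
      rw [h1, e1, ← hzu]
      group
    calc (z * c) * b = ((z * c) * b * (z * c)⁻¹) * (z * c) := by group
      _ = b * (z * c) := by rw [h2]
  have hep : (z * c) ^ p ∈ pCore p H := by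
    have h1 := mul_pow_mem_normal (inferInstance : (pCore p H).Normal) (b := c) hz p
    rw [← hc, pow_orderOf_eq_one, inv_one, mul_one, hc] at h1
    exact h1
  have hep1 : (z * c) ^ p = 1 := by
    apply hfp _ hep
    exact ((show Commute (z * c) b from heb).pow_left p).eq.symm
  intro w hw
  have hcz : c = z⁻¹ * (z * c) := by group
  have hzw : z⁻¹ * w = w * z⁻¹ := core_comm hpp hqp hpq (inv_mem hz) hw
  by_cases he : z * c = 1
  · rw [hcz, he, mul_one]
    exact hzw
  · have heo : orderOf (z * c) = p := orderOf_eq_prime hep1 he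
    obtain ⟨h1, -, -⟩ := hS.beta hp hq hr hpq hpr hqr hp2 hq2 hOq hOr heo hbo heb
    have h2 := h1 w hw
    rw [hcz]
    calc z⁻¹ * (z * c) * w = z⁻¹ * ((z * c) * w) := by group
      _ = z⁻¹ * (w * (z * c)) := by rw [h2]
      _ = (z⁻¹ * w) * (z * c) := by group
      _ = (w * z⁻¹) * (z * c) := by rw [hzw]
      _ = w * (z⁻¹ * (z * c)) := by group

/-- The cyclic case. -/
theorem Sit.case_D1 [Finite V] [Nontrivial V] [Group.IsSolvable H] (hS : Sit ρ σ) {p q r : ℕ} (hp : p ∈ σ)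
    (hq : q ∈ σ) (hr : r ∈ σ) (hpq : p ≠ q) (hpr : p ≠ r) (hqr : q ≠ r) (hp2 : p ≠ 2) (hq2 : q ≠ 2)
    (hOp : pCore p H ≠ ⊥) (hOq : pCore q H ≠ ⊥) (hOr : pCore r H = ⊥)
    (hcp : IsCyclic (pCore p H)) (hcq : IsCyclic (pCore q H)) : False := by
  have hpp := hS.prime p hp
  have hqp := hS.prime q hq
  have hrp := hS.prime r hr
  haveI : Fact p.Prime := ⟨hpp⟩
  haveI : Fact q.Prime := ⟨hqp⟩
  haveI : Fact r.Prime := ⟨hrp⟩
  have hn : ∀ (e : ℕ) (g : H), g ∈ normalizer ((pCore e H : Subgroup H) : Set H) := fun e g =>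
    mem_normalizer_of_normal inferInstance g
  have hall : ∀ c d : H, orderOf c = p → orderOf d = q → d * c = c * d := by
    intro c d hc hd
    have hdec : ∃ u ∈ pCore p H, ∃ w ∈ pCore q H, d * c * d⁻¹ * c⁻¹ = u * w := by
      apply hS.decomp hp hq hr hpq hpr hqr hOr
      · intro u hu
        exact (mem_centralizer_iff.mp
          (comm_mem_centralizer_of_isCyclic hcp (hn p d) (hn p c)) u hu).symm
      · intro u hu
        exact (mem_centralizer_iff.mp
          (comm_mem_centralizer_of_isCyclic hcq (hn q d) (hn q c)) u hu).symm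
    obtain ⟨u, hu, w, hw, e⟩ := hdec
    exact (comm_of_commutator_mem inferInstance hpq pCore_isPGroup pCore_isPGroup hc hd
      (hS.D1_claim hp hq hr hpq hpr hqr hp2 hq2 hOp hOq hOr hcp hcq hc)
      (hS.D1_claim hq hp hr hpq.symm hqr hpr hq2 hp2 hOq hOp hOr hcq hcp hd)
      (fun u hu w hw => core_comm hpp hqp hpq hu hw) hu hw e).symm
  obtain ⟨c₀, -, hc₀⟩ := exists_order_of_ne_bot (pCore_isPGroup (p := p)) hOp
  obtain ⟨d₀, -, hd₀⟩ := exists_order_of_ne_bot (pCore_isPGroup (p := q)) hOq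
  obtain ⟨c₁, hNCc⟩ := hS.rank p hp c₀ hc₀
  obtain ⟨d₁, hNCd⟩ := hS.rank q hq d₀ hd₀
  obtain ⟨b, hbE, hb1, hnf⟩ := exists_not_free (ρ := ρ) hNCd
  have hbo := hNCd.order hqp hbE hb1
  exact hnf (hS.fixNC hp hq hpq hNCc hbo (hall _ _ hNCc.ox hbo) (hall _ _ hNCc.oy hbo))

/-- The non-cyclic case. -/
theorem Sit.case_D2 [Finite V] [Nontrivial V] [hsol : Group.IsSolvable H] (hS : Sit ρ σ) {p q r : ℕ}
    (hp : p ∈ σ) (hq : q ∈ σ) (hr : r ∈ σ) (hpq : p ≠ q) (hpr : p ≠ r) (hqr : q ≠ r) (hp2 : p ≠ 2)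
    (hq2 : q ≠ 2) (hOp : pCore p H ≠ ⊥) (hOq : pCore q H ≠ ⊥) (hOr : pCore r H = ⊥)
    (hcp : ¬ IsCyclic (pCore p H)) : False := by
  classical
  have hpp := hS.prime p hp
  have hqp := hS.prime q hq
  have hrp := hS.prime r hr
  haveI : Fact p.Prime := ⟨hpp⟩
  haveI : Fact q.Prime := ⟨hqp⟩
  haveI : Fact r.Prime := ⟨hrp⟩
  have hn : ∀ (e : ℕ) (g : H), g ∈ normalizer ((pCore e H : Subgroup H) : Set H) := fun e g =>
    mem_normalizer_of_normal inferInstance g
  -- a non-cyclic `p`-pair in `O_p`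
  obtain ⟨c₁, hc₁, c₂, hc₂, hNCc⟩ := exists_NC_of_not_cyclic hp2 pCore_isPGroup hcp
  have hc₁1 : c₁ ≠ 1 := by
    rintro rfl
    have := hNCc.ox
    rw [orderOf_one] at this
    exact hpp.one_lt.ne this
  -- no non-cyclic `q`-pair commutes with it
  have hnoq : ∀ y₁ y₂ : H, NC q y₁ y₂ → y₁ * c₁ = c₁ * y₁ → y₁ * c₂ = c₂ * y₁ → y₂ * c₁ = c₁ * y₂ →
      y₂ * c₂ = c₂ * y₂ → False := by
    intro y₁ y₂ hy h1 h2 h3 h4
    obtain ⟨b, hbE, hb1, hnf⟩ := exists_not_free (ρ := ρ) hy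
    have hbo := hy.order hqp hbE hb1
    exact hnf (hS.fixNC hp hq hpq hNCc hbo (comm_EE h1.symm h3.symm hbE).symm
      (comm_EE h2.symm h4.symm hbE).symm)
  -- the unique subgroup of order `q` in `O_q`
  have hexv : ∃ v₀ ∈ pCore q H, orderOf v₀ = q ∧ ∀ y ∈ pCore q H, orderOf y = q → y ∈ zpowers v₀ := by
    have hW : pCore q (pCore q H) ≠ ⊥ := by
      rw [pCore_eq_of_isPGroup pCore_isPGroup]
      intro h
      apply hOq
      rw [eq_bot_iff]
      intro x hx
      have : (⟨x, hx⟩ : pCore q H) ∈ (⊤ : Subgroup (pCore q H)) := trivial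
      rw [h, mem_bot] at this
      exact congrArg Subtype.val this
    have hnc : ∀ a b : pCore q H, ¬ NC q a b := by
      intro a b hab
      have h := hab.coe
      exact hnoq _ _ h (core_comm hqp hpp hpq.symm a.2 hc₁) (core_comm hqp hpp hpq.symm a.2 hc₂)
        (core_comm hqp hpp hpq.symm b.2 hc₁) (core_comm hqp hpp hpq.symm b.2 hc₂)
    obtain ⟨z, hzo, hz⟩ := exists_unique_order hW hnc
    refine ⟨z, z.2, (Subgroup.orderOf_coe z).trans hzo, ?_⟩
    intro y hy hyo
    have := hz ⟨y, hy⟩ ((Subgroup.orderOf_mk _ _).trans hyo)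
    obtain ⟨k, hk⟩ := mem_zpowers_iff.mp this
    refine mem_zpowers_iff.mpr ⟨k, ?_⟩
    simpa using congrArg Subtype.val hk
  obtain ⟨v₀, hv₀, hv₀o, hvu⟩ := hexv
  have hv₀1 : v₀ ≠ 1 := by
    rintro rfl
    rw [orderOf_one] at hv₀o
    exact hqp.one_lt.ne hv₀o
  have hnorm : ∀ g : H, g * v₀ * g⁻¹ ∈ zpowers v₀ := by
    intro g
    refine hvu _ ((inferInstance : (pCore q H).Normal).conj_mem _ hv₀ g) ?_
    rw [← hv₀o]
    exact orderOf_injective (MulAut.conj g).toMonoidHom (MulAut.conj g).injective v₀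
  -- order-`r` elements commuting with `v₀` are fixed point free on `O_p`
  have hfpr : ∀ y : H, orderOf y = r → y * v₀ = v₀ * y → ∀ u ∈ pCore p H, y * u = u * y → u = 1 := by
    intro y hy hyv
    exact (hS.beta hq hp hr hpq.symm hqr hpr hq2 hp2 hOp hOr hv₀o hy hyv.symm).2.2
  obtain ⟨x₀, -, hx₀, -, -⟩ := hS.pair r hr p hp hpr.symm
  obtain ⟨x₁, hNCb⟩ := hS.rank r hr x₀ hx₀
  -- a non-cyclic `r`-pair cannot centralize `v₀`
  have hnotall : ∀ {y₁ y₂ : H}, NC r y₁ y₂ → y₁ * v₀ = v₀ * y₁ → y₂ * v₀ = v₀ * y₂ → False := by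
    intro y₁ y₂ hy h1 h2
    obtain ⟨b, hbE, hb1, k, hk, hko, hbk⟩ := hy.acts hrp hpr.symm pCore_isPGroup hOp
      (fun g _ => hn p g)
    have hbo := hy.order hrp hbE hb1
    have hbv : b * v₀ = v₀ * b := (comm_EE h1.symm h2.symm hbE).symm
    have := hfpr b hbo hbv k hk hbk
    rw [this, orderOf_one] at hko
    exact hpp.one_lt.ne hko
  have hrq : r ∣ q - 1 := by
    by_cases h1 : x₀ * v₀ = v₀ * x₀
    · by_cases h2 : x₁ * v₀ = v₀ * x₁
      · exact (hnotall hNCb h1 h2).elim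
      · exact dvd_sub_one_of_normalizes hqp hrp hv₀o (by rw [← hNCb.oy, pow_orderOf_eq_one])
          (hnorm x₁) h2
    · exact dvd_sub_one_of_normalizes hqp hrp hv₀o (by rw [← hNCb.ox, pow_orderOf_eq_one])
        (hnorm x₀) h1
  have hrltq : r < q := by
    have h1 := Nat.le_of_dvd (Nat.sub_pos_of_lt hqp.one_lt) hrq
    have := hqp.one_lt
    omega
  -- an element of order `r` centralizing `v₀`
  obtain ⟨b₀, hb₀E, hb₀1, k₀, hk₀, hk₀o, hb₀k⟩ := hNCb.acts hrp hqr.symm
    (isPGroup_zpowers hqp hv₀o) (by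
      intro h
      have := mem_zpowers v₀
      rw [h, mem_bot] at this
      exact hv₀1 this)
    (fun g _ => by
      rw [mem_normalizer_iff]
      intro h
      constructor
      · intro hh
        obtain ⟨m, rfl⟩ := mem_zpowers_iff.mp hh
        have := zpow_mem (hnorm g) m
        rwa [conj_zpow] at this
      · intro hh
        have h1 : ∀ a ∈ zpowers v₀, g⁻¹ * a * g⁻¹⁻¹ ∈ zpowers v₀ := by
          intro a ha
          obtain ⟨m, rfl⟩ := mem_zpowers_iff.mp ha
          have := zpow_mem (hnorm g⁻¹) m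
          rwa [conj_zpow] at this
        have := h1 _ hh
        simpa [mul_assoc] using this)
  have hb₀o := hNCb.order hrp hb₀E hb₀1
  have hk₀1 : k₀ ≠ 1 := by
    rintro rfl
    rw [orderOf_one] at hk₀o
    exact hqp.one_lt.ne hk₀o
  have hb₀v : b₀ * v₀ = v₀ * b₀ :=
    (comm_of_mem_zpowers hqp hv₀o hk₀ hk₀1 hb₀k.symm).symm
  -- a second element of order `q`
  obtain ⟨d, hNCd⟩ := hS.rank q hq v₀ hv₀o
  have hdn : ¬ ∀ u ∈ pCore p H, d * u = u * d := by
    intro h
    exact hnoq v₀ d hNCd (core_comm hqp hpp hpq.symm hv₀ hc₁) (core_comm hqp hpp hpq.symm hv₀ hc₂)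
      (h c₁ hc₁) (h c₂ hc₂)
  -- the Hall subgroup
  let Z : Subgroup H := centralizer {v₀}
  have hmemZ : ∀ g : H, g ∈ Z ↔ g * v₀ = v₀ * g := by
    intro g
    simp only [Z, mem_centralizer_iff, Set.mem_singleton_iff, forall_eq]
    exact eq_comm
  have hZs : Group.IsSolvable Z := inferInstance
  have hUZ : EE v₀ d ≤ Z := by
    rw [EE, closure_le]
    rintro g (rfl | rfl)
    · exact (hmemZ _).mpr rfl
    · exact (hmemZ _).mpr hNCd.comm.symm
  have hUp : IsPGroup q (EE v₀ d) := by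
    intro g
    refine ⟨1, Subtype.ext ?_⟩
    simpa using hNCd.pow_eq_one g.2
  have hUπ : ∀ t : ℕ, t.Prime → t ∣ Nat.card (EE v₀ d) → t ∈ ({q, r} : Set ℕ) := by
    intro t ht hd
    obtain ⟨n, hn'⟩ := IsPGroup.iff_card.mp hUp
    rw [hn'] at hd
    exact Or.inl ((Nat.prime_dvd_prime_iff_eq ht hqp).mp (ht.dvd_of_dvd_pow hd))
  obtain ⟨T, hTZ, hUT, hTπ, hTdiv, -⟩ := exists_hall_containing Z hZs {q, r} (EE v₀ d) hUZ hUπ
  have hv₀T : v₀ ∈ T := hUT (left_mem_EE v₀ d)
  have hdT : d ∈ T := hUT (right_mem_EE v₀ d)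
  have hrT : r ∣ Nat.card T := by
    apply hTdiv r hrp (Or.inr rfl)
    rw [← hb₀o]
    exact Subgroup.orderOf_dvd_natCard Z ((hmemZ _).mpr hb₀v)
  have hTv : ∀ g ∈ T, g * v₀ = v₀ * g := fun g hg => (hmemZ g).mp (hTZ hg)
  -- the subgroup `L`
  let L : Subgroup H := T ⊓ centralizer ((pCore p H : Subgroup H) : Set H)
  have hmemL : ∀ g : H, g ∈ L ↔ g ∈ T ∧ ∀ u ∈ pCore p H, g * u = u * g := by
    intro g
    constructor
    · rintro ⟨h1, h2⟩
      exact ⟨h1, fun u hu => (mem_centralizer_iff.mp h2 u hu).symm⟩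
    · rintro ⟨h1, h2⟩
      exact ⟨h1, mem_centralizer_iff.mpr fun u hu => (h2 u hu).symm⟩
  have hLq : IsPGroup q L := by
    rw [IsPGroup.iff_card]
    refine ⟨_, Nat.eq_prime_pow_of_unique_prime_dvd Nat.card_pos.ne' ?_⟩
    intro t ht hd
    rcases hTπ t ht (hd.trans (Subgroup.card_dvd_of_le inf_le_left)) with h | h
    · exact h
    · exfalso
      rw [Set.mem_singleton_iff] at h
      subst h
      obtain ⟨y, hy⟩ := exists_prime_orderOf_dvd_card' t hd
      have hy' : orderOf (y : H) = t := (Subgroup.orderOf_coe y).trans hy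
      obtain ⟨hyT, hyC⟩ := (hmemL y).mp y.2
      exact hc₁1 (hfpr y hy' (hTv y hyT) c₁ hc₁ (hyC c₁ hc₁))
  have hLcyc : IsCyclic L := by
    by_contra hcon
    obtain ⟨y₁, hy₁, y₂, hy₂, hy⟩ := exists_NC_of_not_cyclic hq2 hLq hcon
    obtain ⟨-, h1⟩ := (hmemL _).mp hy₁
    obtain ⟨-, h2⟩ := (hmemL _).mp hy₂
    exact hnoq _ _ hy (h1 c₁ hc₁) (h1 c₂ hc₂) (h2 c₁ hc₁) (h2 c₂ hc₂)
  have hv₀L : v₀ ∈ L := (hmemL _).mpr ⟨hv₀T, fun u hu => core_comm hqp hpp hpq.symm hv₀ hu⟩
  have hLn : ∀ g ∈ T, g ∈ normalizer ((L : Subgroup H) : Set H) := fun g hg =>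
    mem_normalizer_inf (le_normalizer hg) (mem_normalizer_of_normal inferInstance g)
  have hbL : ∀ b ∈ T, orderOf b = r → ∀ y ∈ L, b * y = y * b := by
    intro b hb hbo y hy
    have h1 := Cfsg.Agent.Lib.LocalEven.Isolated.centralizes_of_cyclic (p := q) hLq hLcyc
      (hLn b hb) (by rw [hbo]; exact (Nat.coprime_primes hrp hqp).mpr hqr.symm) hv₀L hv₀1
      (by rw [hTv b hb]; group) hy
    calc b * y = (b * y * b⁻¹) * b := by group
      _ = y * b := by rw [h1]
  -- the module of `O_p`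
  obtain ⟨W, i1, i2, i3, ρW, hnt, hfix, hker⟩ := exists_pkg (Γ := H) (s := p) (pCore p H) pCore_isPGroup
  have hbfree : ∀ b ∈ T, orderOf b = r → ∀ v : W, ρW b v = v → v = 0 := by
    intro b hb hbo v hv
    by_contra hv0
    obtain ⟨m, hm, hm1, hmc⟩ := hfix (zpowers b)
      (by
        rw [Nat.card_zpowers, hbo]
        exact (Nat.coprime_primes hrp hpp).mpr hpr.symm) v hv0
      (fun a ha => fixed_of_mem_zpowers hv ha)
    exact hm1 (hfpr b hbo (hTv b hb) m hm (hmc b (mem_zpowers b)))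
  -- work inside `T`
  have hπT : ∀ t : ℕ, t.Prime → t ∣ Nat.card T → t = q ∨ t = r := fun t ht hd => hTπ t ht hd
  have hcent : ∀ b : T, orderOf b = r → ∀ u ∈ pCore q T, b * u = u * b := by
    intro b hb u hu
    have hb' : orderOf (b : H) = r := (Subgroup.orderOf_coe b).trans hb
    let Y : Subgroup H := (pCore q T).map T.subtype
    have hYq : IsPGroup q Y := (pCore_isPGroup (p := q) (G := T)).map T.subtype
    have hYT : Y ≤ T := map_subtype_le _
    have hbY : (b : H) ∈ normalizer ((Y : Subgroup H) : Set H) := by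
      apply mem_normalizer_map
      exact mem_normalizer_of_normal inferInstance b
    have h1 := commute_of_free (F := ZMod p) (r := r) (cast_ne_zero_of_ne hrp hpr.symm) ρW (b : H) hb' Y
      hbY (card_coprime_of_isPGroup hYq ((Nat.coprime_primes hrp hqp).mpr hqr.symm))
      (fun t ht hd => by
        obtain ⟨n, hn'⟩ := IsPGroup.iff_card.mp hYq
        rw [hn'] at hd
        rw [(Nat.prime_dvd_prime_iff_eq ht hqp).mp (ht.dvd_of_dvd_pow hd)]
        exact cast_ne_zero_of_ne hqp hpq.symm)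
      (hbfree b b.2 hb')
      (fun t m ht hd hm => by
        obtain ⟨n, hn'⟩ := IsPGroup.iff_card.mp hYq
        rw [hn'] at hd
        rw [(Nat.prime_dvd_prime_iff_eq ht hqp).mp (ht.dvd_of_dvd_pow hd)]
        have h2 : q ^ 1 ≤ q ^ m := Nat.pow_le_pow_right hqp.pos hm
        rw [pow_one] at h2
        omega)
      (u : H) ⟨u, hu, rfl⟩
    -- the commutator lies in `L`
    set c : H := (b : H) * u * (b : H)⁻¹ * (u : H)⁻¹ with hcdef
    have huY : (u : H) ∈ Y := ⟨u, hu, rfl⟩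
    have hcY : c ∈ Y :=
      Y.mul_mem ((mem_normalizer_iff.mp hbY _).mp huY) (Y.inv_mem huY)
    have hρc : ρW c = 1 := by
      rw [hcdef, map_mul, h1, ← map_mul, mul_inv_cancel, map_one]
    have hcord : (orderOf c).Coprime p := by
      obtain ⟨n, hn'⟩ := (IsPGroup.iff_orderOf (p := q)).mp hYq ⟨c, hcY⟩
      rw [Subgroup.orderOf_mk] at hn'
      rw [hn']
      exact ((Nat.coprime_primes hqp hpp).mpr hpq.symm).pow_left n
    have hcL : c ∈ L := (hmemL c).mpr ⟨hYT hcY, hker c hcord hρc⟩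
    have hbc := hbL b b.2 hb' c hcL
    have hconj : (b : H) * u * (b : H)⁻¹ = c * u := by
      rw [hcdef]
      group
    have hcr : c ^ r = 1 := pow_eq_one_of_conj_eq_mul hbc hconj (by rw [← hb', pow_orderOf_eq_one])
    have hc1 : c = 1 := by
      obtain ⟨n, hn'⟩ := (IsPGroup.iff_orderOf (p := q)).mp hYq ⟨c, hcY⟩
      rw [Subgroup.orderOf_mk] at hn'
      have h4 : orderOf c ∣ r := orderOf_dvd_of_pow_eq_one hcr
      have h5 : (orderOf c).Coprime r := by
        rw [hn']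
        exact ((Nat.coprime_primes hqp hrp).mpr hqr).pow_left n
      exact orderOf_eq_one_iff.mp (Nat.Coprime.eq_one_of_dvd h5 h4)
    rw [hc1] at hconj
    rw [one_mul] at hconj
    apply Subtype.ext
    calc ((b * u : T) : H) = (b : H) * u := rfl
      _ = ((b : H) * u * (b : H)⁻¹) * b := by group
      _ = (u : H) * b := by rw [hconj]
  have hncT : ∀ a b : T, ¬ NC r a b := by
    intro a b hab
    exact hnotall hab.coe (hTv a a.2) (hTv b b.2)
  obtain ⟨z, hzo, hz⟩ := lemma_Z hqr hπT hrT hcent hncT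
  let d' : T := ⟨d, hdT⟩
  have hd'o : orderOf d' = q := (Subgroup.orderOf_coe d').symm.trans hNCd.oy
  have hcomm : d' * z = z * d' := by
    by_contra hne
    have hz1 : d' * z * d'⁻¹ ∈ zpowers z := by
      apply hz
      rw [← hzo]
      exact orderOf_injective (MulAut.conj d').toMonoidHom (MulAut.conj d').injective z
    have h1 := dvd_sub_one_of_normalizes hrp hqp hzo (by rw [← hd'o, pow_orderOf_eq_one]) hz1 hne
    have h2 := Nat.le_of_dvd (Nat.sub_pos_of_lt hrp.one_lt) h1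
    have := hrp.one_lt
    omega
  have hz' : orderOf (z : H) = r := (Subgroup.orderOf_coe z).trans hzo
  obtain ⟨h1, -, -⟩ := hS.beta hq hp hr hpq.symm hqr hpr hq2 hp2 hOp hOr hNCd.oy hz'
    (congrArg Subtype.val hcomm)
  exact hdn h1

/-- Two odd cores. -/
theorem Sit.case_D [Finite V] [Nontrivial V] [hsol : Group.IsSolvable H] (hS : Sit ρ σ) {p q r : ℕ}
    (hp : p ∈ σ) (hq : q ∈ σ) (hr : r ∈ σ) (hpq : p ≠ q) (hpr : p ≠ r) (hqr : q ≠ r) (hp2 : p ≠ 2)
    (hq2 : q ≠ 2) (hOp : pCore p H ≠ ⊥) (hOq : pCore q H ≠ ⊥) (hOr : pCore r H = ⊥) : False := by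
  by_cases hcp : IsCyclic (pCore p H)
  · by_cases hcq : IsCyclic (pCore q H)
    · exact hS.case_D1 hp hq hr hpq hpr hqr hp2 hq2 hOp hOq hOr hcp hcq
    · exact hS.case_D2 hq hp hr hpq.symm hqr hpr hq2 hp2 hOq hOp hOr hcq
  · exact hS.case_D2 hp hq hr hpq hpr hqr hp2 hq2 hOp hOq hOr hcp

/-- **The final contradiction for the situation.** -/
theorem Sit.false [Finite V] [Nontrivial V] [hsol : Group.IsSolvable H] (hS : Sit ρ σ) : False := by
  classical
  -- the three primes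
  obtain ⟨a, b, c, hab, hac, hbc, hσ⟩ := Finset.card_eq_three.mp hS.card
  have ha : a ∈ σ := by rw [hσ]; simp
  have hb : b ∈ σ := by rw [hσ]; simp
  have hc : c ∈ σ := by rw [hσ]; simp
  -- nontrivial group
  obtain ⟨x, y, hx, hy, hxy⟩ := hS.pair a ha b hb hab
  have hH : Nontrivial H := by
    refine ⟨⟨x, 1, ?_⟩⟩
    rintro rfl
    rw [orderOf_one] at hx
    exact (hS.prime a ha).one_lt.ne hx
  -- some core is non-trivial
  have hcore : ∃ t ∈ σ, pCore t H ≠ ⊥ := by
    by_contra hcon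
    push Not at hcon
    have hxF : x ∈ fittingSubgroup H := by
      apply mem_fitting_of_centralizes
      intro t ht u hu
      by_cases htσ : t ∈ σ
      · rw [hcon t htσ, mem_bot] at hu
        rw [hu]
        simp
      · rw [hS.core_eq_bot ht htσ, mem_bot] at hu
        rw [hu]
        simp
    haveI : Fact a.Prime := ⟨hS.prime a ha⟩
    have h1 : x ∈ pCore a H := mem_pCore_of_mem_fitting' hxF ⟨1, by rw [pow_one, ← hx, pow_orderOf_eq_one]⟩
    rw [hcon a ha, mem_bot] at h1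
    rw [h1, orderOf_one] at hx
    exact (hS.prime a ha).one_lt.ne hx
  -- the case distinction
  have main : ∀ {p q r : ℕ}, p ∈ σ → q ∈ σ → r ∈ σ → p ≠ q → p ≠ r → q ≠ r → pCore p H ≠ ⊥ → False := by
    intro p q r hp hq hr hpq hpr hqr hOp
    by_cases hOq : pCore q H = ⊥
    · by_cases hOr : pCore r H = ⊥
      · by_cases hp2 : p = 2
        · subst hp2
          exact hS.case_B hp hq hr hpq.symm hpr.symm hqr hOp hOq hOr
        · exact hS.case_A hq hr hp hqr hpq.symm hpr.symm hp2 hOp hOq hOr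
      · -- `O_p, O_r` non-trivial
        by_cases hp2 : p = 2
        · subst hp2
          exact hS.case_C hp hr hq hpr.symm hpq.symm hqr.symm hOp hOr
        · by_cases hr2 : r = 2
          · subst hr2
            exact hS.case_C hr hp hq hp2 hqr hpq hOr hOp
          · exact hS.case_D hp hr hq hpr hpq hqr.symm hp2 hr2 hOp hOr hOq
    · by_cases hOr : pCore r H = ⊥
      · by_cases hp2 : p = 2
        · subst hp2
          exact hS.case_C hp hq hr hpq.symm hpr.symm hqr hOp hOq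
        · by_cases hq2 : q = 2
          · subst hq2
            exact hS.case_C hq hp hr hp2 hqr.symm hpr hOq hOp
          · exact hS.case_D hp hq hr hpq hpr hqr hp2 hq2 hOp hOq hOr
      · -- three cores
        haveI : Fact p.Prime := ⟨hS.prime p hp⟩
        haveI : Fact q.Prime := ⟨hS.prime q hq⟩
        haveI : Fact r.Prime := ⟨hS.prime r hr⟩
        obtain ⟨u, hu, huo⟩ := exists_order_of_ne_bot (pCore_isPGroup (p := p)) hOp
        obtain ⟨v, hv, hvo⟩ := exists_order_of_ne_bot (pCore_isPGroup (p := q)) hOq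
        obtain ⟨w, hw, hwo⟩ := exists_order_of_ne_bot (pCore_isPGroup (p := r)) hOr
        exact hS.tri p hp q hq r hr hpq hpr hqr u v w huo hvo hwo
          (core_comm (hS.prime p hp) (hS.prime q hq) hpq hu hv)
          (core_comm (hS.prime p hp) (hS.prime r hr) hpr hu hw)
          (core_comm (hS.prime q hq) (hS.prime r hr) hqr hv hw)
  obtain ⟨t, ht, hOt⟩ := hcore
  rcases hS.eq_of_mem ha hb hc hab hac hbc ht with rfl | rfl | rfl
  · exact main ha hb hc hab hac hbc hOt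
  · exact main hb ha hc hab.symm hbc hac hOt
  · exact main hc ha hb hac.symm hbc.symm hab hOt

end D

end Cfsg.Agent.Lib.FourP
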